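import Cfsg.Agent.Lib.SX.Def
import Cfsg.Agent.Lib.GW.Basic

/-! # S5720: `A₄` acting on a group of odd order -/

set_option autoImplicit false

namespace Cfsg.Lib.SX

open Subgroup
open scoped MatrixGroups commutatorElement

variable {M : Type*} [Group M]

/-- `Tr` with `x := c`, `y := g⁻¹ * c * g`: `c * y = c ^ 2 * a`, `a = (c⁻¹ * g * c)⁻¹ * g`, and the three conjugates `g₀ = g`, `g₁ = c⁻¹ g c`,
`g₂ = c⁻¹ g₁ c` commute pairwise (conjugate `h1` by `c`, `c ^ 3 = 1`); `(c ^ 2 * a) ^ 3 = g₂⁻¹ g₁ * g₀⁻¹ g₂ * g₁⁻¹ g₀ = 1`. -/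
theorem tr_of_comm {c g : M} (hc : c ^ 3 = 1) (c1 : c ≠ 1) (h1 : Commute g (c⁻¹ * g * c)) (h2 : c⁻¹ * g * c ≠ g)
    (h3 : c * (g⁻¹ * c * g) ≠ 1) : Tr M := by
  have cc : ∀ x, c⁻¹ * (c⁻¹ * x) = c * x := fun x => by
    rw [← mul_assoc, ← mul_inv_rev, ← sq, inv_mul_eq_iff_eq_mul, ← mul_assoc, ← pow_succ, hc, one_mul]
  have cc' : c * c = c⁻¹ := by rw [eq_inv_iff_mul_eq_one, ← pow_three', hc]
  refine ⟨c, g⁻¹ * c * g, hc, ?_, ?_, c1, fun e => c1 ?_, h3, fun e => h2 ?_⟩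
  · have := conj_pow (a := g⁻¹) (b := c) (i := 3)
    rw [inv_inv] at this
    rw [this, hc, mul_one, inv_mul_cancel]
  · have h20 : Commute (c * g * c⁻¹) g := by simpa [mul_assoc] using h1.map (MulAut.conj c)
    have h12 : Commute (c⁻¹ * g * c) (c * g * c⁻¹) := by
      have := h1.map (MulAut.conj c⁻¹)
      simp only [MulAut.conj_apply, inv_inv, mul_assoc, cc, cc'] at this
      simpa only [mul_assoc] using this
    have e : (c * (g⁻¹ * c * g)) ^ 3 =
        (c * g * c⁻¹)⁻¹ * (c⁻¹ * g * c) * (g⁻¹ * (c * g * c⁻¹)) * ((c⁻¹ * g * c)⁻¹ * g) := by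
      simp only [pow_three, mul_inv_rev, inv_inv, mul_assoc, cc]
    rw [e]
    generalize c * g * c⁻¹ = a at *
    generalize c⁻¹ * g * c = b at *
    rw [← h20.inv_right.eq, mul_assoc a⁻¹, ← mul_assoc b, h12.eq, mul_assoc a, inv_mul_cancel_left,
      ← h1.inv_left.eq]
    simp
  · simpa [mul_assoc] using congrArg (fun x => g * x * g⁻¹) e
  · rw [mul_assoc, inv_mul_eq_iff_eq_mul]
    rw [mul_assoc, eq_inv_mul_iff_mul_eq] at e
    exact e

/-- `SL(2, 3)`-configuration whose central involution is central in `M`. -/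
structure Q8c (i j c : M) : Prop where
  z : i * i ∈ center M
  jj : j * j = i * i
  ij : i * j * i⁻¹ = j⁻¹
  ci : c⁻¹ * i * c = j
  cj : c⁻¹ * j * c = i * j
  c3 : c ^ 3 = 1

theorem mem_of_sq [Finite M] {R D : Subgroup M} (ho : Odd (Nat.card R)) {x : M} (hx : x ∈ R) (h : x * x ∈ D) :
    x ∈ D := by
  obtain ⟨n, hn⟩ := ho
  have e : x ^ (2 * n + 1) = 1 := by
    rw [← hn]
    exact congrArg Subtype.val (pow_card_eq_one' (G := R) (x := ⟨x, hx⟩))
  rw [pow_succ, pow_mul, sq, mul_eq_one_iff_inv_eq] at e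
  exact e ▸ inv_mem (pow_mem h n)

theorem comm_aux [Finite M] {R D : Subgroup M} (ho : Odd (Nat.card R)) (hD : ⁅R, R⁆ ≤ D) (hDR : D ≤ R)
    (hc : D ≤ centralizer (R : Set M)) (φ : M ≃* M) (hφ : ∀ d ∈ D, φ d = d) {v y d e : M} (hv : v ∈ R) (hy : y ∈ R)
    (hd : d ∈ D) (he : e ∈ D) (h1 : φ v = v * d) (h2 : φ y = y⁻¹ * e) : Commute v y ∧ (v = y → v ∈ D) := by
  have cm : ∀ d ∈ D, ∀ x ∈ R, x * d = d * x := fun d hd x hx => hc hd x hx
  constructor
  · have hz : ⁅v, y⁆ ∈ D := hD (commutator_mem_commutator hv hy)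
    have e1 := hφ _ hz
    have e2 : ⁅v * d, y⁻¹ * e⁆ = ⁅v, y⁆⁻¹ := by
      calc ⁅v * d, y⁻¹ * e⁆ = v * (d * (y⁻¹ * e) * d⁻¹) * v⁻¹ * (y⁻¹ * e)⁻¹ := by
            simp only [commutatorElement_def, mul_inv_rev, mul_assoc]
        _ = v * y⁻¹ * (e * v⁻¹ * e⁻¹) * y := by
            rw [← cm d hd _ (mul_mem (inv_mem hy) (hDR he)), mul_inv_cancel_right]
            simp only [mul_inv_rev, inv_inv, mul_assoc]
        _ = y⁻¹ * (⁅v, y⁆⁻¹ * y) := by
            rw [← cm e he _ (inv_mem hv), mul_inv_cancel_right]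
            simp only [commutatorElement_def, mul_inv_rev, inv_inv, mul_assoc, inv_mul_cancel_left]
        _ = ⁅v, y⁆⁻¹ := by rw [← cm _ (inv_mem hz) _ hy, inv_mul_cancel_left]
    rw [map_commutatorElement, h1, h2, e2, inv_eq_iff_mul_eq_one] at e1
    exact commutatorElement_eq_one_iff_commute.1
      (mem_bot.1 (mem_of_sq (D := ⊥) ho (hDR hz) (mem_bot.2 e1)))
  · rintro rfl
    refine mem_of_sq ho hv ?_
    have : v * v = e * d⁻¹ := by
      rw [eq_mul_inv_iff_mul_eq, mul_assoc, ← h1, h2, mul_inv_cancel_left]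
    exact this ▸ mul_mem he (inv_mem hd)

/-- Conjugations by `i, j, k = i * j` are commuting involutory automorphisms with product `1`, permuted cyclically by `c`.  `R` has odd order, `D` is
central in `R` and fixed by `i, j`, `R / D` is abelian, and `i` or `j` acts non-trivially on it.  In the abelian group `R / D` (additively)
`4 a = (1+i+j+k) a + (1+i-j-k) a + (1-i+j-k) a + (1-i-j+k) a`, so (odd order) one of the last three is `≠ 0` for some `a`; conjugating by `c` get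
`x ∈ R \ D` with `x ^ i ∈ x D`, `x ^ j ∈ x⁻¹ D`.  Then `y = c⁻¹ x c` has `y ^ j ∈ y D`, `y ^ i ∈ y⁻¹ D`; `⁅x, y⁆ ∈ D` is fixed by `i` and also inverted
(bilinear as `D` is central), so `= 1`; `y ≠ x` as `x ^ 2 ∉ D`. -/
theorem exists_comm [Finite M] {i j c : M} (h : Q8c i j c) {R D : Subgroup M} (ho : Odd (Nat.card R)) (hD : ⁅R, R⁆ ≤ D) (hDR : D ≤ R)
    (hc : D ≤ centralizer (R : Set M)) (hi : i ∈ normalizer (R : Set M)) (hcR : c ∈ normalizer (R : Set M))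
    (hcD : c ∈ normalizer (D : Set M)) (hiD : i ∈ centralizer (D : Set M)) (hjD : j ∈ centralizer (D : Set M))
    (hn : ∃ x ∈ R, x⁻¹ * (i⁻¹ * x * i) ∉ D) : ∃ g ∈ R, Commute g (c⁻¹ * g * c) ∧ c⁻¹ * g * c ≠ g := by
  let α := MulAut.conj i⁻¹
  let β := MulAut.conj j⁻¹
  let γ := MulAut.conj c⁻¹
  have ea : ∀ x, α x = i⁻¹ * x * i := fun x => by simp [α]
  have eb : ∀ x, β x = j⁻¹ * x * j := fun x => by simp [β]
  have ec : ∀ x, γ x = c⁻¹ * x * c := fun x => by simp [γ]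
  have hz : ∀ b x, (i * i * b)⁻¹ * x * (i * i * b) = b⁻¹ * x * b := fun b x => by
    rw [mul_inv_rev, mul_assoc, ← mul_assoc x, mem_center_iff.1 h.z x]
    simp only [mul_inv_rev, mul_assoc, inv_mul_cancel_left]
  have jij : j * (i * j) = i := by
    rw [← mul_inv_eq_one, mul_assoc, h.ij, mul_inv_cancel]
  have aa : ∀ x, α (α x) = x := fun x => by simpa [ea, mul_assoc] using hz 1 x
  have bb : ∀ x, β (β x) = x := fun x => by simpa [eb, ← h.jj, mul_assoc] using hz 1 x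
  have ab : ∀ x, α (β x) = β (α x) := fun x => by
    have e : i * i * (i * j) = j * i := by
      rw [← h.jj, mul_inv_eq_iff_eq_mul.1 h.ij, mul_assoc, mul_inv_cancel_left]
    have := hz (i * j) x
    rw [e] at this
    simpa [ea, eb, mul_assoc] using this
  have bg : ∀ x, β (γ x) = γ (α x) := fun x => by
    rw [ea, eb, ec, ec, ← h.ci]
    simp [mul_assoc]
  have ag : ∀ x, α (γ x) = γ (β (α x)) := fun x => by
    have e : c⁻¹ * (i * j) * c = i := by
      calc c⁻¹ * (i * j) * c = c⁻¹ * i * c * (c⁻¹ * j * c) := by simp [mul_assoc]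
        _ = i := by rw [h.ci, h.cj, jij]
    rw [ea, ec, ec, eb, ea]
    nth_rw 1 2 [← e]
    simp [mul_assoc]
  have hα : ∀ x ∈ R, α x ∈ R := fun x hx => ea x ▸ (mem_normalizer_iff''.1 hi x).1 hx
  have hγ : ∀ x ∈ R, γ x ∈ R := fun x hx => ec x ▸ (mem_normalizer_iff''.1 hcR x).1 hx
  have hγD : ∀ x ∈ D, γ x ∈ D := fun x hx => ec x ▸ (mem_normalizer_iff''.1 hcD x).1 hx
  have hβ : ∀ x ∈ R, β x ∈ R := fun x hx => eb x ▸ (mem_normalizer_iff''.1
    (h.ci ▸ mul_mem (mul_mem (inv_mem hcR) hi) hcR) x).1 hx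
  have fα : ∀ d ∈ D, α d = d := fun d hd => by rw [ea, mul_assoc, hiD d hd, inv_mul_cancel_left]
  have fβ : ∀ d ∈ D, β d = d := fun d hd => by rw [eb, mul_assoc, hjD d hd, inv_mul_cancel_left]
  have K : ∀ a ∈ R, ∀ b ∈ R, ∃ d ∈ D, b * a = a * b * d := fun a ha b hb =>
    ⟨⁅b⁻¹, a⁻¹⁆, hD (commutator_mem_commutator (inv_mem hb) (inv_mem ha)), by
      simp [commutatorElement_def, mul_assoc]⟩
  obtain ⟨x, hx, hn⟩ := hn
  rw [← ea] at hn
  have hu : x⁻¹ * α x ∈ R := mul_mem (inv_mem hx) (hα x hx)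
  have au : α (x⁻¹ * α x) = (x⁻¹ * α x)⁻¹ := by rw [map_mul, map_inv, aa, mul_inv_rev, inv_inv]
  generalize x⁻¹ * α x = u at hn hu au
  have hw := hβ u hu
  have aw : α (β u) = (β u)⁻¹ := by rw [ab, au, map_inv]
  by_cases h1 : u * β u ∈ D
  · have hv : u * (β u)⁻¹ ∈ R := mul_mem hu (inv_mem hw)
    have h2 : u * (β u)⁻¹ ∉ D := fun h2 => by
      obtain ⟨d, hd, e⟩ := K u hu (β u) hw
      refine hn (mem_of_sq ho hu ?_)
      have h3 := mul_mem h2 (mul_mem h1 hd)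
      rw [← e] at h3
      simpa [mul_assoc] using h3
    obtain ⟨d, hd, e1⟩ := K u hu (β u)⁻¹ (inv_mem hw)
    obtain ⟨d', hd', e2⟩ := K (β u) hw u⁻¹ (inv_mem hu)
    have := comm_aux ho hD hDR hc α fα (hγ _ hv) hv (hγD d hd) hd'
      (by rw [ag, map_mul α, map_inv α, au, aw, inv_inv, map_mul β, map_inv β, bb, e1, map_mul γ])
      (by rw [map_mul, map_inv, au, aw, inv_inv, e2, mul_inv_rev, inv_inv])
    rw [ec] at this
    exact ⟨_, hv, this.1.symm, fun e => h2 (e ▸ this.2 e)⟩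
  · have hv : u * β u ∈ R := mul_mem hu hw
    obtain ⟨d, hd, e1⟩ := K u hu (β u) hw
    obtain ⟨d', hd', e2⟩ := K (β u)⁻¹ (inv_mem hw) u⁻¹ (inv_mem hu)
    have := comm_aux ho hD hDR hc β fβ hv (hγ _ hv) hd (hγD d' hd')
      (by rw [map_mul, bb, e1])
      (by rw [bg, map_mul α, au, aw, e2, map_mul γ, ← mul_inv_rev, map_inv])
    rw [ec] at this
    exact ⟨_, hv, this.1, fun e => h1 (this.2 e.symm)⟩

/-- Let `R ≤ N` be minimal normalized by `i, c` (hence `j`) and not centralized by `i`; `T = closure {i, j}` is a 2-group normalized by `c`.  `D = ⁅R, R⁆ < R`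
(`GW.odd_sol`) is centralized by `i` and `j = c⁻¹ i c`.  `⁅R, T⁆ = R` (else `⁅R, T, T⁆ = 1`, so `⁅R, T⁆ = 1` by coprime action, e.g. elementwise:
`d = x⁻¹ x ^ i` fixed by `i` and inverted by `i`); three subgroups lemma: `D` is central in `R`.  If `x⁻¹ x ^ i ∈ D` for all `x`, it is fixed and inverted by `i`.
`exists_comm`, `tr_of_comm` (`c * (g⁻¹ c g) ∈ c ^ 2 N`). -/
theorem Q8c.cent [Finite M] {i j c : M} (h : Q8c i j c) (N : Subgroup M) [N.Normal] (ho : Odd (Nat.card N)) (hc : c ^ 2 ∉ N)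
    (ht : ¬ Tr M) : i ∈ centralizer (N : Set M) := by
  by_contra hn
  obtain ⟨R, ⟨hRN, hi, hcR, hR⟩, hm⟩ := exists_minimal_of_wellFoundedLT
    (fun R : Subgroup M => R ≤ N ∧ i ∈ normalizer (R : Set M) ∧ c ∈ normalizer (R : Set M) ∧
      i ∉ centralizer (R : Set M))
    ⟨N, le_rfl, by simp [normalizer_eq_top], by simp [normalizer_eq_top], hn⟩
  have mn : ∀ S < R, i ∈ normalizer (S : Set M) → c ∈ normalizer (S : Set M) → i ∈ centralizer (S : Set M) :=
    fun S hS h1 h2 => by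
      by_contra h3
      exact hS.not_ge (hm ⟨hS.le.trans hRN, h1, h2, h3⟩ hS.le)
  have hoR : Odd (Nat.card R) := ho.of_dvd_nat (card_dvd_of_le hRN)
  have key : ∀ S ≤ R, i ∈ centralizer (S : Set M) → ∃ x ∈ R, x⁻¹ * (i⁻¹ * x * i) ∉ S := fun S hS h1 => by
    by_contra h2
    push Not at h2
    refine hR fun x hx => ?_
    have h3 := h1 _ (h2 x hx)
    have h4 : x⁻¹ * (i⁻¹ * x * i) * (x⁻¹ * (i⁻¹ * x * i)) = 1 := by
      have h5 : i⁻¹ * (x⁻¹ * (i⁻¹ * x * i)) * i = x⁻¹ * (i⁻¹ * x * i) := by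
        rw [mul_assoc, h3, inv_mul_cancel_left]
      nth_rw 2 [← h5]
      have h6 := mem_center_iff.1 h.z x
      simp only [mul_assoc, mul_inv_cancel_left] at h6 ⊢
      simp [h6]
    have h5 := mem_bot.1 (mem_of_sq (D := ⊥) hoR (hS (h2 x hx)) (mem_bot.2 h4))
    rw [inv_mul_eq_one, mul_assoc, eq_inv_mul_iff_mul_eq] at h5
    exact h5.symm
  have nc : ∀ g ∈ normalizer (R : Set M), g ∈ normalizer ((⁅R, R⁆ : Subgroup M) : Set M) := fun g hg => by
    rw [mem_normalizer_iff_map_conj_eq] at hg ⊢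
    rw [map_commutator, hg]
  have hlt : ⁅R, R⁆ < R := by
    have := GW.odd_sol hoR
    have : Nontrivial R := (nontrivial_iff_ne_bot R).2 (by rintro rfl; simp at hR)
    rw [← R.range_subtype, MonoidHom.range_eq_map, ← map_commutator, map_subtype_lt_map_subtype]
    exact Group.IsSolvable.commutator_lt_top_of_nontrivial R
  have hiD := mn _ hlt (nc i hi) (nc c hcR)
  have cc : ∀ g ∈ normalizer ((⁅R, R⁆ : Subgroup M) : Set M), ∀ y ∈ centralizer ((⁅R, R⁆ : Subgroup M) : Set M),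
      g⁻¹ * y * g ∈ centralizer ((⁅R, R⁆ : Subgroup M) : Set M) := fun g hg y hy d hd => by
    have := hy _ ((mem_normalizer_iff.1 hg d).1 hd)
    calc d * (g⁻¹ * y * g) = g⁻¹ * (g * d * g⁻¹ * y) * g := by simp [mul_assoc]
      _ = _ := by rw [this]; simp [mul_assoc]
  have hjD : j ∈ centralizer ((⁅R, R⁆ : Subgroup M) : Set M) := h.ci ▸ cc c (nc c hcR) i hiD
  have nz : ∀ g ∈ normalizer (R : Set M),
      g ∈ normalizer ((R ⊓ centralizer ((⁅R, R⁆ : Subgroup M) : Set M) : Subgroup M) : Set M) := fun g hg =>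
    inf_normalizer_le_normalizer_inf ⟨hg, mem_normalizer_fintype fun y hy => by
      simpa using cc g⁻¹ (inv_mem (nc g hg)) y hy⟩
  have hC : R ≤ centralizer ((⁅R, R⁆ : Subgroup M) : Set M) := by
    by_contra h1
    obtain ⟨x, hx, h2⟩ := key _ inf_le_left (mn _ (inf_lt_left.2 h1) (nz i hi) (nz c hcR))
    refine h2 (mem_inf.2 ⟨mul_mem (inv_mem hx) ((mem_normalizer_iff''.1 hi x).1 hx), ?_⟩)
    simpa only [mul_assoc] using mul_mem (cc x (nc x (le_normalizer hx)) _ (inv_mem hiD)) hiD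
  obtain ⟨g, hg, h1, h2⟩ := exists_comm h hoR le_rfl hlt.le (le_centralizer_iff.1 hC) hi hcR (nc c hcR) hiD hjD
    (key _ hlt.le hiD)
  refine ht (tr_of_comm h.c3 (by rintro rfl; simp at hc) h1 h2 fun e => hc ?_)
  have : c ^ 2 = g⁻¹ * (c⁻¹ * g * c) := by
    rw [sq, ← one_mul (g⁻¹ * _), ← e]
    simp [mul_assoc]
  rw [this]
  exact mul_mem (inv_mem (hRN hg)) (hRN ((mem_normalizer_iff''.1 hcR g).1 hg))

end Cfsg.Lib.SX
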