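import Cfsg.Agent.Lib.SX.Def

/-! # S5720: the group algebra of the Borel subgroup of `SL(2, p)` in characteristic `p` -/

set_option autoImplicit false

namespace Cfsg.Lib.SX

open Module
open scoped MatrixGroups

variable {K : Type*} [Field K] {p : ℕ} [Fact p.Prime] [CharP K p]

theorem io_pow (b : (ZMod p)ˣ) : io K p b ^ (p - 1) = 1 := by
  rw [← map_pow, ← Units.val_pow_eq_pow_val, ZMod.units_pow_card_sub_one_eq_one, Units.val_one, map_one]

theorem io_inv_mul (b : (ZMod p)ˣ) : io K p (b⁻¹ : (ZMod p)ˣ) * io K p b = 1 := by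
  rw [← map_mul, Units.inv_mul, map_one]

/-- `FiniteField.sum_pow_units` mapped by `io`. -/
theorem sum_units (m : ℕ) : ∑ b : (ZMod p)ˣ, io K p b ^ m = if (p - 1) ∣ m then -1 else 0 := by
  have := congrArg (io K p) (FiniteField.sum_pow_units (ZMod p) m)
  simpa [apply_ite (io K p), ZMod.card] using this

/-- `b⁻¹ ^ j * b ^ m = b ^ (j * (p - 2) + m)`, or shift both by periodicity. -/
theorem sum_units' (j m : ℕ) :
    ∑ b : (ZMod p)ˣ, io K p (b⁻¹ : (ZMod p)ˣ) ^ j * io K p b ^ m = if j ≡ m [MOD p - 1] then -1 else 0 := by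
  obtain ⟨q, hq⟩ : ∃ q, p - 1 = q + 1 := ⟨p - 2, by have := (Fact.out : p.Prime).two_le; omega⟩
  have e : ∀ b : (ZMod p)ˣ, io K p (b⁻¹ : (ZMod p)ˣ) = io K p b ^ q := fun b => by
    rw [← mul_one (io K p _), ← io_pow (K := K) b, hq, pow_succ', ← mul_assoc, io_inv_mul, one_mul]
  simp only [e, ← pow_mul, ← pow_add, sum_units]
  refine if_congr ?_ rfl rfl
  rw [Nat.modEq_iff_dvd, ← Int.natCast_dvd_natCast, hq]
  exact dvd_iff_dvd_of_dvd_sub ⟨j, by push_cast; ring⟩

/-- Multiply by `io a⁻¹ ^ j` and sum over the units (`sum_units'`). -/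
theorem uniq_units {M : Type*} [AddCommGroup M] [Module K M] (y : ℕ → M)
    (h : ∀ a : (ZMod p)ˣ, ∑ i ∈ Finset.range p, io K p a ^ i • y i = 0) :
    (∀ i, 0 < i → i < p - 1 → y i = 0) ∧ y 0 + y (p - 1) = 0 := by
  have h2 := (Fact.out : p.Prime).two_le
  have key : ∀ j, ∑ i ∈ Finset.range p, (if j ≡ i [MOD p - 1] then y i else 0) = 0 := fun j => by
    have : ∑ a : (ZMod p)ˣ, io K p (a⁻¹ : (ZMod p)ˣ) ^ j • ∑ i ∈ Finset.range p, io K p a ^ i • y i = 0 :=
      Finset.sum_eq_zero fun a _ => by rw [h, smul_zero]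
    simp only [Finset.smul_sum, smul_smul] at this
    rw [Finset.sum_comm] at this
    refine neg_eq_zero.1 (Eq.trans ?_ this)
    rw [← Finset.sum_neg_distrib]
    refine Finset.sum_congr rfl fun i _ => ?_
    rw [← Finset.sum_smul, sum_units']
    split_ifs <;> simp
  have hm : ∀ i < p, i ≠ p - 1 → i % (p - 1) = i := fun i a b => Nat.mod_eq_of_lt (by omega)
  refine ⟨fun j a b => ?_, ?_⟩
  · rw [← key j, Finset.sum_eq_single_of_mem j (Finset.mem_range.2 (by omega)) fun i hi e => if_neg fun c => ?_,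
      if_pos (Nat.ModEq.refl _)]
    rw [Nat.ModEq, Nat.mod_eq_of_lt b] at c
    by_cases d : i = p - 1
    · rw [d, Nat.mod_self] at c
      omega
    · exact e ((hm i (Finset.mem_range.1 hi) d).symm.trans c.symm)
  · rw [← key 0, Finset.sum_eq_add_of_mem 0 (p - 1) (Finset.mem_range.2 (by omega)) (Finset.mem_range.2 (by omega))
      (by omega) fun i hi e => if_neg fun c => ?_, if_pos (Nat.ModEq.refl _), if_pos (by simp [Nat.ModEq])]
    rw [Nat.ModEq, Nat.zero_mod, hm i (Finset.mem_range.1 hi) e.2] at c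
    exact e.1 c.symm

/-- `a = 0` gives `y 0 = 0`. -/
theorem uniq {M : Type*} [AddCommGroup M] [Module K M] (y : ℕ → M)
    (h : ∀ a : ZMod p, ∑ i ∈ Finset.range p, io K p a ^ i • y i = 0) : ∀ i < p, y i = 0 := by
  have h0 : y 0 = 0 := by
    rw [← h 0, Finset.sum_eq_single_of_mem 0 (Finset.mem_range.2 (Fact.out : p.Prime).pos) fun i _ e => by simp [e]]
    simp
  obtain ⟨h1, h2⟩ := uniq_units (K := K) (p := p) y fun a => h a
  intro i hi
  rcases Nat.eq_zero_or_pos i with rfl | a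
  · exact h0
  by_cases b : i = p - 1
  · rwa [h0, zero_add, ← b] at h2
  · exact h1 i a (by omega)

theorem YY_zero : YY K p 0 = 1 := by
  rw [YY, if_pos rfl]

theorem YY_big {i : ℕ} (h : p ≤ i) : YY K p i = 0 := by
  have := (Fact.out : p.Prime).pos
  rw [YY, if_neg (by omega), if_neg (by omega)]

theorem YY_top : YY K p (p - 1) = -∑ a : ZMod p, og K p (uu a) := by
  have := (Fact.out : p.Prime).two_le
  rw [YY, if_neg (by omega), if_pos (by omega)]
  simp

/-- `∑ i ∈ Ico 1 p, b ^ i * a ^ (p - 1 - i)` is `b * (a ^ (p - 1) - b ^ (p - 1)) / (a - b)` for `a ≠ b` (`geom_sum₂_mul`):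
`0` if `a, b ≠ 0`, `1` if `a = 0 ≠ b`, `-1` if `a = b ≠ 0`, `0` if `b = 0`. -/
theorem uu_eq (b : ZMod p) : og K p (uu b) = ∑ i ∈ Finset.range p, io K p b ^ i • YY K p i := by
  have zz : ∀ b : ZMod p, ∑ i ∈ Finset.range p, io K p b ^ i • -∑ a : ZMod p, io K p a ^ (p - 1 - i) • og K p (uu a) =
      og K p (uu b) - ∑ a : ZMod p, og K p (uu a) := fun b => by
    have e : ∀ a : ZMod p, ∑ i ∈ Finset.range p, b ^ i * a ^ (p - 1 - i) = 1 - if a = b then 1 else 0 := fun a => by
      split_ifs with c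
      · rw [c, geom_sum₂_self, CharP.cast_eq_zero, zero_mul, sub_self]
      · refine mul_right_cancel₀ (sub_ne_zero.2 (Ne.symm c)) ?_
        rw [geom_sum₂_mul, ZMod.pow_card, ZMod.pow_card, sub_zero, one_mul]
    simp only [smul_neg, Finset.sum_neg_distrib, Finset.smul_sum, smul_smul]
    rw [Finset.sum_comm]
    simp only [← Finset.sum_smul, ← map_pow, ← map_mul, ← map_sum, e, map_sub, map_one, sub_smul, one_smul,
      Finset.sum_sub_distrib, apply_ite (io K p), map_zero, ite_smul, zero_smul, Finset.sum_ite_eq', Finset.mem_univ,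
      if_true, neg_sub]
  have h0 := Finset.mem_range.2 (Fact.out : p.Prime).pos
  have z0 := zz 0
  rw [Finset.sum_eq_single_of_mem 0 h0 fun i _ e => by simp [e], pow_zero, one_smul, uu_zero, map_one] at z0
  rw [eq_comm, ← sub_left_inj (a := ∑ a : ZMod p, og K p (uu a)), ← zz, ← Finset.add_sum_erase _ _ h0,
    ← Finset.add_sum_erase _ _ h0, pow_zero, one_smul, one_smul, z0, YY_zero, add_sub_right_comm, add_right_inj]
  refine Finset.sum_congr rfl fun i hi => ?_
  rw [YY, if_neg (Finset.ne_of_mem_erase hi), if_pos (Finset.mem_range.1 (Finset.mem_of_mem_erase hi))]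

/-- Expand `uu (a + b) = uu a * uu b` by `uu_eq`, `add_pow`, and use `uniq` twice (terms with `i + j ≥ p` vanish by `YY_big`;
the cases `p ≤ i` or `p ≤ j` are trivial). -/
theorem YY_mul (i j : ℕ) : YY K p j * YY K p i = ((i + j).choose i : K) • YY K p (i + j) := by
  by_cases hi : p ≤ i
  · rw [YY_big hi, YY_big (hi.trans (Nat.le_add_right _ _)), mul_zero, smul_zero]
  by_cases hj : p ≤ j
  · rw [YY_big hj, YY_big (hj.trans (Nat.le_add_left _ _)), zero_mul, smul_zero]
  refine sub_eq_zero.1 (uniq (K := K) (fun j => YY K p j * YY K p i - ((i + j).choose i : K) • YY K p (i + j))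
    (fun b => uniq (K := K) (fun i => ∑ j ∈ Finset.range p, io K p b ^ j •
      (YY K p j * YY K p i - ((i + j).choose i : K) • YY K p (i + j))) (fun a => ?_) i (not_le.1 hi)) j (not_le.1 hj))
  have e := congrArg (og K p) (uu_add b a)
  rw [map_mul, uu_eq, uu_eq, uu_eq, Finset.sum_mul_sum, Finset.sum_comm] at e
  simp only [smul_sub, Finset.smul_sum, Finset.sum_sub_distrib, smul_smul]
  rw [sub_eq_zero]
  refine (Finset.sum_congr rfl fun i _ => Finset.sum_congr rfl fun j _ => ?_).trans (e.symm.trans ?_)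
  · rw [smul_mul_smul_comm, mul_comm]
  let f (i j : ℕ) : GA K p := (io K p a ^ i * (io K p b ^ j * ((i + j).choose i : K))) • YY K p (i + j)
  refine (Finset.sum_congr rfl fun k _ => ?_).trans ((Finset.sum_range_diag_flip p f).trans
    (Finset.sum_congr rfl fun i _ => Finset.sum_subset (Finset.range_subset_range.2 (Nat.sub_le _ _)) fun j _ hj => ?_))
  · rw [add_comm b, map_add, add_pow, Finset.sum_smul]
    refine Finset.sum_congr rfl fun i hi => ?_
    simp only [f, Nat.add_sub_of_le (Nat.lt_succ_iff.1 (Finset.mem_range.1 hi)), mul_assoc]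
  · simp only [f]
    rw [YY_big (by rw [Finset.mem_range] at hj; omega), smul_zero]

/-- `hh_uu`, `uu_eq`, `uniq` (or reindex the defining sum). -/
theorem hh_YY (b : (ZMod p)ˣ) (i : ℕ) :
    og K p (hh b) * YY K p i = io K p b ^ (2 * i) • (YY K p i * og K p (hh b)) := by
  by_cases hi : p ≤ i
  · rw [YY_big hi, mul_zero, zero_mul, smul_zero]
  refine sub_eq_zero.1 (uniq (K := K) (fun i => og K p (hh b) * YY K p i - io K p b ^ (2 * i) • (YY K p i * og K p (hh b)))
    (fun a => ?_) i (not_le.1 hi))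
  have e := congrArg (og K p) (hh_uu b a)
  rw [map_mul, map_mul, uu_eq, uu_eq, Finset.mul_sum, Finset.sum_mul] at e
  simp only [mul_smul_comm, smul_mul_assoc, map_mul, map_pow, mul_pow, ← pow_mul] at e
  simp only [smul_sub, Finset.sum_sub_distrib, smul_smul, e, mul_comm (io K p a ^ _), sub_self]

theorem YY_pow (i : ℕ) : YY K p 1 ^ i = (i.factorial : K) • YY K p i := by
  induction i with
  | zero => simp [YY_zero]
  | succ i ih =>
    rw [pow_succ, ih, smul_mul_assoc, YY_mul, smul_smul, add_comm 1 i, Nat.choose_one_right, Nat.factorial_succ,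
      Nat.cast_mul, mul_comm]

theorem YY_pow_p : YY K p 1 ^ p = 0 := by
  rw [YY_pow, YY_big le_rfl, smul_zero]

/-- `YY (i + 1) = (i + 1)⁻¹ • YY i * YY 1` for `i + 1 < p`. -/
theorem YY_dvd {i : ℕ} (h : 0 < i) : ∃ Z : GA K p, YY K p i = Z * YY K p 1 := by
  by_cases hi : p ≤ i
  · exact ⟨0, by rw [YY_big hi, zero_mul]⟩
  refine ⟨(i.factorial : K)⁻¹ • YY K p 1 ^ (i - 1), ?_⟩
  rw [smul_mul_assoc, ← pow_succ, Nat.sub_add_cancel h, YY_pow, smul_smul, inv_mul_cancel₀, one_smul]
  exact fun e => hi ((Fact.out : p.Prime).dvd_factorial.1 ((CharP.cast_eq_zero_iff K p _).1 e))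

theorem uu_sub_one (a : ZMod p) : ∃ Z : GA K p, og K p (uu a) - 1 = Z * YY K p 1 := by
  have h0 := Finset.mem_range.2 (Fact.out : p.Prime).pos
  choose Z hZ using fun i : ℕ => YY_dvd (K := K) (p := p) i.succ_pos
  refine ⟨∑ i ∈ (Finset.range p).erase 0, io K p a ^ i • Z (i - 1), ?_⟩
  rw [uu_eq, ← Finset.add_sum_erase _ _ h0, pow_zero, one_smul, YY_zero, add_sub_cancel_left, Finset.sum_mul]
  refine Finset.sum_congr rfl fun i hi => ?_
  rw [smul_mul_assoc, ← hZ, Nat.succ_eq_add_one, Nat.sub_add_cancel (Nat.pos_of_ne_zero (Finset.ne_of_mem_erase hi))]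

theorem pp_congr {i j : ℕ} (h : i ≡ j [MOD p - 1]) : pp K p i = pp K p j := by
  simp only [pp, fun b : (ZMod p)ˣ => pow_eq_pow_of_modEq h (io_pow (K := K) b⁻¹)]

theorem hh_pp (b : (ZMod p)ˣ) (j : ℕ) : og K p (hh b) * pp K p j = io K p b ^ j • pp K p j := by
  rw [pp, mul_neg, smul_neg, Finset.mul_sum, Finset.smul_sum, neg_inj]
  refine Fintype.sum_equiv (Equiv.mulLeft b) _ _ fun c => ?_
  rw [Equiv.coe_mulLeft, mul_smul_comm, ← map_mul, ← hh_mul, smul_smul, ← mul_pow, ← map_mul, ← Units.val_mul,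
    mul_inv, mul_inv_cancel_left]

theorem pp_mul (i j : ℕ) : pp K p i * pp K p j = if i ≡ j [MOD p - 1] then pp K p j else 0 := by
  conv_lhs => rw [pp, neg_mul, Finset.sum_mul]
  simp only [smul_mul_assoc, hh_pp, smul_smul, ← Finset.sum_smul, sum_units']
  split_ifs <;> simp

/-- `∑ j < p - 1, x ^ j` is `-1` for `x = 1` and `0` for other units. -/
theorem pp_sum : ∑ j ∈ Finset.range (p - 1), pp K p j = 1 := by
  have h2 := (Fact.out : p.Prime).two_le
  have e : ∀ b : (ZMod p)ˣ, ∑ j ∈ Finset.range (p - 1), io K p (b⁻¹ : (ZMod p)ˣ) ^ j = if b = 1 then -1 else 0 := fun b => by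
    split_ifs with c
    · simp [c, Nat.cast_sub (one_le_two.trans h2)]
    · refine (mul_eq_zero.1 ((geom_sum_mul _ _).trans (by rw [io_pow, sub_self]))).resolve_right fun e => c ?_
      rw [sub_eq_zero, map_eq_one_iff _ (io K p).injective, Units.val_eq_one, inv_eq_one] at e
      exact e
  simp only [pp, Finset.sum_neg_distrib]
  rw [Finset.sum_comm]
  simp only [← Finset.sum_smul, e, ite_smul, zero_smul, Finset.sum_ite_eq', Finset.mem_univ, if_true, hh_one, map_one,
    neg_smul, one_smul, neg_neg]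

theorem YY_pp (j : ℕ) : YY K p 1 * pp K p j = pp K p (j + 2) * YY K p 1 := by
  simp only [pp, mul_neg, neg_mul, Finset.mul_sum, Finset.sum_mul, mul_smul_comm, smul_mul_assoc, hh_YY, smul_smul,
    pow_add, mul_assoc, mul_one, ← mul_pow, io_inv_mul, one_pow]

theorem pp_apply {V : Type*} [AddCommGroup V] [Module K V] (ρ : Representation K SL(2, ZMod p) V) {v : V} {m : ℕ}
    (h : ∀ b : (ZMod p)ˣ, ρ (hh b) v = io K p b ^ m • v) (j : ℕ) :
    ρ.asAlgebraHom (pp K p j) v = if j ≡ m [MOD p - 1] then v else 0 := by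
  simp only [pp, map_neg, map_sum, map_smul, Representation.asAlgebraHom_of, LinearMap.neg_apply, LinearMap.sum_apply,
    LinearMap.smul_apply, h, smul_smul, ← Finset.sum_smul, sum_units']
  split_ifs <;> simp

end Cfsg.Lib.SX
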