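import Cfsg.Agent.Lib.SX.Def

/-! # S5720: cheap configurations -/

set_option autoImplicit false

namespace Cfsg.Lib.SX

open Module
open scoped MatrixGroups

variable {K V H : Type*} [Field K] [AddCommGroup V] [Module K V] [FiniteDimensional K V] [Group H]
  {ρ : Representation K H V} {F : ℕ}

/-- If `(r : K) = 0` then `(ρ b - 1) ^ r = 0` (`sub_pow_char`-like, `r` prime, `End K V` may be trivial),
use `nl_pow`.  Otherwise, with `N g = ∑ j < r, ρ g ^ j`:
`r • 1 = ∑ i < r, N (a * b ^ i) + N b * (1 - N a)` (expand `N (a * b ^ i) = ∑ j, a ^ j * b ^ (i * j)`, and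
`∑ i < r, b ^ (i * j) = N b` for `0 < j < r`; or just `rcases` r = 2, 3, 5 and normalise powers of `ρ b`),
so `finrank V ≤ rk (r • 1) ≤ (r + 1) * F` by `rk_sum, rk_add, rk_mul_left, rk_norm`. -/
theorem Er.le (h : Bd ρ F) (e : Er H) : finrank K V ≤ 6 * F := by
  obtain ⟨r, hr, a, b, hab, ha, hb, hb1, hi⟩ := e
  rcases subsingleton_or_nontrivial V with hV | hV
  · rw [finrank_zero_of_subsingleton]; exact Nat.zero_le _
  have hr5 : r ≤ 5 := by omega
  have hp : r.Prime := by rcases hr with rfl | rfl | rfl <;> norm_num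
  have hB : ρ b ^ r = 1 := by rw [← map_pow, hb, map_one]
  by_cases hK : (r : K) = 0
  · haveI := Fact.mk hp
    haveI : CharP K r := (CharP.charP_iff_prime_eq_zero hp).2 hK
    haveI : CharP (End K V) r := charP_of_injective_algebraMap (algebraMap K (End K V)).injective r
    have h1 : (ρ b - 1) ^ r = 0 := by
      rw [sub_pow_char_of_commute r (Commute.one_right _), hB, one_pow, sub_self]
    have h2 := nl_pow (ρ b - 1) r
    rw [h1, nl, LinearMap.ker_zero, finrank_top] at h2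
    exact h2.trans (Nat.mul_le_mul (by omega) (h b hb1))
  · have hN : ∀ j, 0 < j → j < r →
        ∑ i ∈ Finset.range r, ρ b ^ (j * i) = ∑ i ∈ Finset.range r, ρ b ^ i := by
      intro j j0 jr
      rw [Finset.sum_congr rfl fun i _ => pow_eq_pow_mod (j * i) hB]
      rcases hr with rfl | rfl | rfl <;> interval_cases j <;>
        simp only [Finset.sum_range_succ, Finset.sum_range_zero] <;> norm_num <;> abel
    have hc : Commute (ρ a) (ρ b) := hab.map ρ
    obtain ⟨s, rfl⟩ : ∃ s, r = s + 1 := ⟨r - 1, by omega⟩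
    have key : ((s + 1 : ℕ) : K) • (1 : End K V) =
        ∑ i ∈ Finset.range (s + 1), ∑ j ∈ Finset.range (s + 1), ρ (a * b ^ i) ^ j -
          (∑ j ∈ Finset.range s, ρ a ^ (j + 1)) * ∑ i ∈ Finset.range (s + 1), ρ b ^ i := by
      rw [Finset.sum_comm, Finset.sum_range_succ', Finset.sum_mul]
      have : ∀ j ∈ Finset.range s, ∑ i ∈ Finset.range (s + 1), ρ (a * b ^ i) ^ (j + 1) =
          ρ a ^ (j + 1) * ∑ i ∈ Finset.range (s + 1), ρ b ^ i := by
        intro j hj
        rw [← hN (j + 1) (by omega) (by have := Finset.mem_range.1 hj; omega), Finset.mul_sum]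
        refine Finset.sum_congr rfl fun i _ => ?_
        rw [map_mul, map_pow, (hc.pow_right i).mul_pow, ← pow_mul, mul_comm i]
      rw [Finset.sum_congr rfl this, add_sub_cancel_left]
      simp only [pow_zero, Finset.sum_const, Finset.card_range, Nat.cast_smul_eq_nsmul]
    have h1 : rk (((s + 1 : ℕ) : K) • (1 : End K V)) = finrank K V := by
      rw [rk, LinearMap.range_smul _ _ hK, End.one_eq_id, LinearMap.range_id, finrank_top]
    have h2 : rk (∑ i ∈ Finset.range (s + 1), ∑ j ∈ Finset.range (s + 1), ρ (a * b ^ i) ^ j) ≤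
        (s + 1) * F := by
      refine (rk_sum _ _).trans ?_
      have := Finset.sum_le_card_nsmul (Finset.range (s + 1))
        (fun i => rk (∑ j ∈ Finset.range (s + 1), ρ (a * b ^ i) ^ j)) F fun i _ =>
          (rk_norm ρ (by rw [(hab.pow_right i).mul_pow, ha, ← pow_mul, mul_comm i, pow_mul, hb,
            one_pow, one_mul])).trans (h _ (hi i))
      rwa [Finset.card_range, smul_eq_mul] at this
    have h3 : rk ((∑ j ∈ Finset.range s, ρ a ^ (j + 1)) * ∑ i ∈ Finset.range (s + 1), ρ b ^ i) ≤ F :=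
      (rk_mul_right _ _).trans ((rk_norm ρ hb).trans (h b hb1))
    rw [← h1, key]
    refine (rk_sub _ _).trans ((add_le_add h2 h3).trans ?_)
    rw [← Nat.succ_mul]
    exact Nat.mul_le_mul_right _ (by omega)

/-- With `e g = 1 + g + g ^ 2`, in any ring with `x ^ 3 = y ^ 3 = 1`, `(x * y) ^ 2 = y ^ 2 * x ^ 2`:
`x ^ 2 * y + y ^ 2 * x - 2 = - e (x * y) - e y + y ^ 2 * e x + e x * y`, of rank `≤ 4 F` (`rk_three`).
With `u = x ^ 2 * y = x⁻¹ * y ≠ 1` the left side is `u⁻¹ * (u - 1) ^ 2`, of nullity `≤ 2 F`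
(`nl_mul`, `nl_pow`; `ρ u⁻¹` is injective); `rk_add_nl`. -/
theorem Tr.le (h : Bd ρ F) (e : Tr H) : finrank K V ≤ 6 * F := by
  obtain ⟨x, y, hx, hy, hxy, x1, y1, xy1, hne⟩ := e
  have ix : x ^ 2 = x⁻¹ := eq_inv_of_mul_eq_one_left (by rw [← pow_succ, hx])
  have iy : y ^ 2 = y⁻¹ := eq_inv_of_mul_eq_one_left (by rw [← pow_succ, hy])
  have ixy : (x * y) ^ 2 = y ^ 2 * x ^ 2 := by
    rw [ix, iy, ← mul_inv_rev]; exact eq_inv_of_mul_eq_one_left (by rw [← pow_succ, hxy])
  have hu : x ^ 2 * y ≠ 1 := fun e => hne (by rwa [ix, inv_mul_eq_one] at e)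
  have hu' : y ^ 2 * x * (x ^ 2 * y) = 1 := by rw [ix, iy]; group
  have e1 : ρ (x * y) ^ 2 = ρ y ^ 2 * ρ x ^ 2 := by rw [← map_pow, ixy, map_mul, map_pow, map_pow]
  have e2 : ρ (y ^ 2 * x) * ρ (x ^ 2 * y) = 1 := by rw [← map_mul, hu', map_one]
  have key : ρ (y ^ 2 * x) * (ρ (x ^ 2 * y) - 1) ^ 2 =
      ρ y ^ 2 * (1 + ρ x + ρ x ^ 2) + (1 + ρ x + ρ x ^ 2) * ρ y -
        (1 + ρ (x * y) + ρ (x * y) ^ 2) - (1 + ρ y + ρ y ^ 2) := by
    have : ρ (y ^ 2 * x) * (ρ (x ^ 2 * y) - 1) ^ 2 = ρ (y ^ 2 * x) * ρ (x ^ 2 * y) * ρ (x ^ 2 * y) -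
        ρ (y ^ 2 * x) * ρ (x ^ 2 * y) - ρ (y ^ 2 * x) * ρ (x ^ 2 * y) + ρ (y ^ 2 * x) := by
      noncomm_ring
    rw [this, e2, e1]
    simp only [map_mul, map_pow]
    noncomm_ring
  have r1 := (rk_three ρ hx).trans (h x x1)
  have r2 := (rk_three ρ hy).trans (h y y1)
  have r3 := (rk_three ρ hxy).trans (h _ xy1)
  have r4 : rk (ρ (y ^ 2 * x) * (ρ (x ^ 2 * y) - 1) ^ 2) ≤ 4 * F := by
    rw [key]
    have a1 := rk_sub (ρ y ^ 2 * (1 + ρ x + ρ x ^ 2) + (1 + ρ x + ρ x ^ 2) * ρ y -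
        (1 + ρ (x * y) + ρ (x * y) ^ 2)) (1 + ρ y + ρ y ^ 2)
    have a2 := rk_sub (ρ y ^ 2 * (1 + ρ x + ρ x ^ 2) + (1 + ρ x + ρ x ^ 2) * ρ y)
        (1 + ρ (x * y) + ρ (x * y) ^ 2)
    have a3 := rk_add (ρ y ^ 2 * (1 + ρ x + ρ x ^ 2)) ((1 + ρ x + ρ x ^ 2) * ρ y)
    have a4 := rk_mul_right (ρ y ^ 2) (1 + ρ x + ρ x ^ 2)
    have a5 := rk_mul_left (1 + ρ x + ρ x ^ 2) (ρ y)
    omega
  have r5 := nl_mul (ρ (y ^ 2 * x)) ((ρ (x ^ 2 * y) - 1) ^ 2)
  have r6 := nl_pow (ρ (x ^ 2 * y) - 1) 2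
  have r7 := h _ hu
  have r8 : nl (ρ (y ^ 2 * x)) = 0 := by
    rw [nl, LinearMap.ker_eq_bot.2 (ρ.apply_bijective _).1, finrank_bot]
  have r9 := rk_add_nl (ρ (y ^ 2 * x) * (ρ (x ^ 2 * y) - 1) ^ 2)
  omega

/-- Orthogonal projections: induction on `J` (or `iSupIndep`); `W j ≤ A`. -/
theorem sum_le {ι : Type*} (J : Finset ι) (q : ι → End K V) (W : ι → Submodule K V) (A : Submodule K V)
    (h1 : ∀ j ∈ J, W j ≤ A) (h2 : ∀ j ∈ J, ∀ v ∈ W j, q j v = v)
    (h3 : ∀ i ∈ J, ∀ j ∈ J, i ≠ j → ∀ v ∈ W j, q i v = 0) :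
    ∑ j ∈ J, finrank K (W j) ≤ finrank K A := by
  classical
  induction J using Finset.induction_on generalizing A with
  | empty => rw [Finset.sum_empty]; exact Nat.zero_le _
  | insert a s ha ih =>
    have hs : ∀ j ∈ s, j ∈ insert a s := fun j hj => Finset.mem_insert_of_mem hj
    have ha' := Finset.mem_insert_self a s
    have e1 := ih (LinearMap.ker (q a) ⊓ A)
      (fun j hj v hv => ⟨h3 a ha' j (hs j hj) (fun e => ha (e ▸ hj)) v hv, h1 j (hs j hj) hv⟩)
      (fun j hj => h2 j (hs j hj)) fun i hi j hj => h3 i (hs i hi) j (hs j hj)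
    have e2 : finrank K (W a) ≤ finrank K (A.map (q a)) :=
      Submodule.finrank_mono fun v hv => ⟨v, h1 a ha' hv, h2 a ha' v hv⟩
    rw [Finset.sum_insert ha, fin_eq (q a) A]
    omega

theorem rk_aux (S : Submodule K V) (f : End K V) (g₂ : End K (V ⧸ S))
    (h2 : ∀ v, S.mkQ (f v) = g₂ (S.mkQ v)) :
    rk f = finrank K (S ⊓ LinearMap.range f : Submodule K V) + rk g₂ := by
  have := LinearMap.finrank_range_add_finrank_ker (S.mkQ.domRestrict (LinearMap.range f))
  rw [LinearMap.range_domRestrict, LinearMap.ker_domRestrict,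
    ← Submodule.finrank_map_subtype_eq, Submodule.map_comap_subtype, inf_comm,
    Submodule.ker_mkQ] at this
  have e : (LinearMap.range f).map S.mkQ = LinearMap.range g₂ := by
    rw [← LinearMap.range_comp, show S.mkQ ∘ₗ f = g₂ ∘ₗ S.mkQ from LinearMap.ext h2,
      LinearMap.range_comp_of_range_eq_top _ S.range_mkQ]
  rw [e] at this
  unfold rk
  omega

/-- Block triangular maps: rank is superadditive.  (`fin_eq`; `range f` maps onto `range g₂` under `S.mkQ`
with kernel `range f ⊓ S ≥ (range g₁).map S.subtype`.) -/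
theorem rk_super (S : Submodule K V) (f : End K V) (g₁ : End K S) (g₂ : End K (V ⧸ S))
    (h1 : ∀ v : S, f v = g₁ v) (h2 : ∀ v, S.mkQ (f v) = g₂ (S.mkQ v)) : rk g₁ + rk g₂ ≤ rk f := by
  have e1 := rk_aux S f g₂ h2
  have e2 : finrank K ((LinearMap.range g₁).map S.subtype) ≤
      finrank K (S ⊓ LinearMap.range f : Submodule K V) := by
    refine Submodule.finrank_mono ?_
    rintro _ ⟨_, ⟨v, rfl⟩, rfl⟩
    exact ⟨(g₁ v).2, v, h1 v⟩
  rw [Submodule.finrank_map_subtype_eq] at e2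
  unfold rk at *
  omega

/-- For idempotents rank is additive (`range f ⊓ S = (range g₁).map S.subtype`). -/
theorem rk_idem (S : Submodule K V) (f : End K V) (g₁ : End K S) (g₂ : End K (V ⧸ S)) (hf : f * f = f)
    (h1 : ∀ v : S, f v = g₁ v) (h2 : ∀ v, S.mkQ (f v) = g₂ (S.mkQ v)) : rk f ≤ rk g₁ + rk g₂ := by
  have e1 := rk_aux S f g₂ h2
  have e2 : finrank K (S ⊓ LinearMap.range f : Submodule K V) ≤
      finrank K ((LinearMap.range g₁).map S.subtype) := by
    refine Submodule.finrank_mono ?_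
    rintro _ ⟨hv, v, rfl⟩
    exact ⟨_, ⟨⟨f v, hv⟩, rfl⟩, (h1 ⟨f v, hv⟩).symm.trans (LinearMap.congr_fun hf v)⟩
  rw [Submodule.finrank_map_subtype_eq] at e2
  unfold rk at *
  omega

omit [FiniteDimensional K V] in
/-- `MonoidAlgebra.induction_on`. -/
theorem alg_sub (S : Submodule K V) (hS : ∀ g, S ≤ S.comap (ρ g)) (x : MonoidAlgebra K H) (v : S) :
    ρ.asAlgebraHom x v = (ρ.subrepresentation S hS).asAlgebraHom x v := by
  induction x using MonoidAlgebra.induction_on with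
  | of g => simp only [Representation.asAlgebraHom_of]; rfl
  | add x y hx hy => simp only [map_add, LinearMap.add_apply, Submodule.coe_add, hx, hy]
  | smul c x hx => simp only [map_smul, LinearMap.smul_apply, Submodule.coe_smul, hx]

omit [FiniteDimensional K V] in
theorem alg_quot (S : Submodule K V) (hS : ∀ g, S ≤ S.comap (ρ g)) (x : MonoidAlgebra K H) (v : V) :
    S.mkQ (ρ.asAlgebraHom x v) = (ρ.quotient S hS).asAlgebraHom x (S.mkQ v) := by
  induction x using MonoidAlgebra.induction_on with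
  | of g => simp only [Representation.asAlgebraHom_of]; rfl
  | add x y hx hy => simp only [map_add, LinearMap.add_apply, hx, hy]
  | smul c x hx => simp only [map_smul, LinearMap.smul_apply, hx]

end Cfsg.Lib.SX
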