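import Cfsg.Agent.Lib.SX.Alg
import Cfsg.Agent.Lib.SX.Cheap

/-! # S5720: a rank inequality for modules of the Borel subgroup -/

set_option autoImplicit false
set_option linter.unusedSectionVars false

namespace Cfsg.Lib.SX

open Module
open scoped MatrixGroups

variable {K V : Type*} [Field K] [AddCommGroup V] [Module K V] {p : ℕ} [Fact p.Prime] [CharP K p]
  {ρ : Representation K SL(2, ZMod p) V} [FiniteDimensional K V]

/-- weight space -/
noncomputable abbrev Wt (ρ : Representation K SL(2, ZMod p) V) (j : ℕ) : Submodule K V :=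
  LinearMap.range (ρ.asAlgebraHom (pp K p j))

/-- highest weight vectors of weight `j` -/
noncomputable def yy (ρ : Representation K SL(2, ZMod p) V) (j : ℕ) : ℕ :=
  finrank K (LinearMap.ker (ρ.asAlgebraHom (YY K p 1)) ⊓ Wt ρ j : Submodule K V)

omit [FiniteDimensional K V] in
theorem yy_congr {i j : ℕ} (h : i ≡ j [MOD p - 1]) : yy ρ i = yy ρ j := by
  unfold yy Wt
  rw [pp_congr h]

omit [FiniteDimensional K V] in
theorem map_range_alg (x y : GA K p) :
    (LinearMap.range (ρ.asAlgebraHom y)).map (ρ.asAlgebraHom x) = LinearMap.range (ρ.asAlgebraHom (x * y)) := by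
  rw [map_mul, End.mul_eq_comp, LinearMap.range_comp]

theorem YY_pow_pp (j m : ℕ) : YY K p 1 ^ m * pp K p j = pp K p (j + 2 * m) * YY K p 1 ^ m := by
  induction m with
  | zero => simp
  | succ m ih => rw [pow_succ', mul_assoc, ih, ← mul_assoc, YY_pp, mul_assoc, mul_add, mul_one, add_assoc]

omit [FiniteDimensional K V] in
theorem range_YY_pp (j : ℕ) : LinearMap.range (ρ.asAlgebraHom (YY K p 1 * pp K p j)) ≤ Wt ρ (j + 2) := by
  rw [YY_pp, ← map_range_alg]
  exact LinearMap.map_le_range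

/-- `sum_le` with `q j = pp j` (`pp_mul`). -/
theorem sum_yy (J : Finset ℕ) (hJ : ∀ i ∈ J, ∀ j ∈ J, i ≡ j [MOD p - 1] → i = j) :
    ∑ j ∈ J, yy ρ j ≤ nl (ρ.asAlgebraHom (YY K p 1)) := by
  refine sum_le J (fun j => ρ.asAlgebraHom (pp K p j)) _ _ (fun _ _ => inf_le_left) ?_ ?_
  · rintro j - _ ⟨-, w, rfl⟩
    rw [← End.mul_apply, ← map_mul, pp_mul, if_pos (Nat.ModEq.refl j)]
  · rintro i hi j hj hne _ ⟨-, w, rfl⟩
    rw [← End.mul_apply, ← map_mul, pp_mul, if_neg fun e => hne (hJ i hi j hj e), map_zero, LinearMap.zero_apply]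

omit [FiniteDimensional K V] in
/-- `YY_pp`, induction on `m`. -/
theorem map_wt {A : Submodule K V} {j : ℕ} (h : A ≤ Wt ρ j) (m : ℕ) :
    A.map (ρ.asAlgebraHom (YY K p 1 ^ m)) ≤ Wt ρ (j + 2 * m) := by
  refine (Submodule.map_mono h).trans ?_
  rw [map_range_alg, YY_pow_pp, ← map_range_alg]
  exact LinearMap.map_le_range

/-- `fin_eq`, induction on `m`. -/
theorem chain {A : Submodule K V} {j : ℕ} (h : A ≤ Wt ρ j) (m : ℕ) :
    finrank K A ≤ ∑ i ∈ Finset.range m, yy ρ (j + 2 * i) + finrank K (A.map (ρ.asAlgebraHom (YY K p 1 ^ m))) := by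
  induction m with
  | zero => rw [pow_zero, map_one, End.one_eq_id, Submodule.map_id]; omega
  | succ m ih =>
    have h1 := fin_eq (ρ.asAlgebraHom (YY K p 1)) (A.map (ρ.asAlgebraHom (YY K p 1 ^ m)))
    have h2 : finrank K (LinearMap.ker (ρ.asAlgebraHom (YY K p 1)) ⊓ A.map (ρ.asAlgebraHom (YY K p 1 ^ m)) :
        Submodule K V) ≤ yy ρ (j + 2 * m) := Submodule.finrank_mono (inf_le_inf_left _ (map_wt h m))
    rw [← Submodule.map_comp, ← End.mul_eq_comp, ← map_mul, ← pow_succ'] at h1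
    rw [Finset.sum_range_succ]
    omega

/-- `A = range (X * pp 2) ≤ Wt 4`, `X ^ (p - 1) A = 0` (`YY_pow_p`), `chain`. -/
theorem bor_even : rk (ρ.asAlgebraHom (YY K p 1 * pp K p 2)) ≤ ∑ i ∈ Finset.range (p - 1), yy ρ (4 + 2 * i) := by
  have h1 := chain (range_YY_pp (ρ := ρ) 2) (p - 1)
  rw [map_range_alg, ← mul_assoc, ← pow_succ, Nat.sub_add_cancel (Fact.out : p.Prime).one_le, YY_pow_p, zero_mul,
    map_zero, LinearMap.range_zero, finrank_bot, add_zero] at h1
  exact h1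

/-- `A = range (X * pp (p - 2)) ≤ Wt p`; `finrank A ≤ yy p + finrank (X A)` (`chain`, `m = 1`), `X A ≤ Wt (p + 2) = Wt 3` (`pp_congr`);
`finrank (X A) ≤ finrank (ker X ^ (p - 4) ⊓ Wt 3) + finrank (X ^ (p - 3) A)` and
`rk (pp 3) = finrank (ker X ^ (p - 4) ⊓ Wt 3) + rk (X ^ (p - 4) * pp 3)` (`fin_eq`); `X ^ (p - 3) A ≤ Wt (3 + 2 (p - 4))`, `chain` with `m = 2`,
`X ^ (p - 1) A = 0`. -/
theorem bor_odd (hp : 5 ≤ p) : rk (ρ.asAlgebraHom (YY K p 1 * pp K p (p - 2))) +
    rk (ρ.asAlgebraHom (YY K p 1 ^ (p - 4) * pp K p 3)) ≤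
    rk (ρ.asAlgebraHom (pp K p 3)) + (yy ρ p + yy ρ (2 * p - 5) + yy ρ (2 * p - 3)) := by
  have hA := range_YY_pp (ρ := ρ) (p - 2)
  rw [Nat.sub_add_cancel (by omega)] at hA
  have h1 := chain hA 1
  have hB := map_wt hA 1
  have e3 : pp K p (p + 2 * 1) = pp K p 3 :=
    pp_congr ((Nat.modEq_iff_dvd' (by omega)).2 (Dvd.intro_left 1 (by omega))).symm
  unfold Wt at hB
  rw [e3] at hB
  have h2 := fin_eq (ρ.asAlgebraHom (YY K p 1 ^ (p - 4)))
    ((LinearMap.range (ρ.asAlgebraHom (YY K p 1 * pp K p (p - 2)))).map (ρ.asAlgebraHom (YY K p 1 ^ 1)))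
  have h3 := fin_eq (ρ.asAlgebraHom (YY K p 1 ^ (p - 4))) (Wt ρ 3)
  have h4 := Submodule.finrank_mono (inf_le_inf_left (LinearMap.ker (ρ.asAlgebraHom (YY K p 1 ^ (p - 4)))) hB)
  have h5 := chain (map_wt hB (p - 4)) 2
  have e0 : YY K p 1 ^ 2 * (YY K p 1 ^ (p - 4) * (YY K p 1 ^ 1 * (YY K p 1 * pp K p (p - 2)))) = 0 := by
    rw [← mul_assoc, ← mul_assoc, ← mul_assoc, ← pow_add, ← pow_add, ← pow_succ,
      show 2 + (p - 4) + 1 + 1 = p by omega, YY_pow_p, zero_mul]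
  rw [map_range_alg, map_range_alg, map_range_alg, e0, map_zero, LinearMap.range_zero, finrank_bot,
    Finset.sum_range_succ, Finset.sum_range_one, show 3 + 2 * (p - 4) + 2 * 0 = 2 * p - 5 by omega,
    show 3 + 2 * (p - 4) + 2 * 1 = 2 * p - 3 by omega, ← map_range_alg, ← map_range_alg] at h5
  rw [map_range_alg] at h3
  rw [Finset.sum_range_one, mul_zero, add_zero] at h1
  unfold rk Wt at *
  omega

/-- `p - 1 = 2 m`; split `bor_even` into `i < m` and `m ≤ i < 2 m`; `sum_yy` for `{p, 2 p - 5, 2 p - 3} ∪ {4 + 2 i}` (each half):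
the three are odd and `≡ 1, -3, -1`, the others even and pairwise incongruent mod `2 m`. -/
theorem bor (hp : 11 ≤ p) : 2 * rk (ρ.asAlgebraHom (YY K p 1 * pp K p (p - 2))) +
    2 * rk (ρ.asAlgebraHom (YY K p 1 ^ (p - 4) * pp K p 3)) + rk (ρ.asAlgebraHom (YY K p 1 * pp K p 2)) ≤
    2 * rk (ρ.asAlgebraHom (pp K p 3)) + 2 * nl (ρ.asAlgebraHom (YY K p 1)) := by
  obtain ⟨m, hm⟩ := (Fact.out : p.Prime).odd_of_ne_two (by omega)
  have h1 := bor_even (ρ := ρ)
  have h2 := bor_odd (ρ := ρ) (by omega)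
  have cg : ∀ a b : ℕ, b = a + 2 * m → yy ρ b = yy ρ a := fun a b e =>
    (yy_congr ((Nat.modEq_iff_dvd' (by omega)).2 (Dvd.intro_left 1 (by omega)))).symm
  rw [show p - 1 = m + m by omega, Finset.sum_range_add,
    Finset.sum_congr rfl fun i _ => cg (4 + 2 * i) (4 + 2 * (m + i)) (by omega)] at h1
  rw [cg (2 * m - 3) (2 * p - 5) (by omega), cg (2 * m - 1) (2 * p - 3) (by omega)] at h2
  have hI : ∀ i ∈ (Finset.range m).image fun i => 4 + 2 * i, 4 ≤ i ∧ i < 4 + 2 * m ∧ i % 2 = 0 := fun i hi => by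
    obtain ⟨a, ha, rfl⟩ := Finset.mem_image.1 hi
    have := Finset.mem_range.1 ha
    omega
  have hS : ∑ i ∈ (Finset.range m).image (fun i => 4 + 2 * i), yy ρ i = ∑ i ∈ Finset.range m, yy ρ (4 + 2 * i) :=
    Finset.sum_image fun i _ j _ (e : 4 + 2 * i = 4 + 2 * j) => by omega
  generalize (Finset.range m).image (fun i => 4 + 2 * i) = I at hI hS
  have hJ : ∀ i ∈ insert p (insert (2 * m - 3) (insert (2 * m - 1) I)), 4 ≤ i ∧ i < 4 + 2 * m := fun i hi => by
    simp only [Finset.mem_insert] at hi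
    rcases hi with rfl | rfl | rfl | hi
    · omega
    · omega
    · omega
    · exact ⟨(hI i hi).1, (hI i hi).2.1⟩
  have h3 := sum_yy (ρ := ρ) _ fun i hi j hj e => by
    have := hJ i hi
    have := hJ j hj
    exact e.eq_of_abs_lt (abs_lt.2 (by omega))
  have n : ∀ i, i % 2 = 1 → i ∉ I := fun i h1 h2 => by
    have := hI i h2
    omega
  have n1 := n (2 * m - 1) (by omega)
  have n2 := n (2 * m - 3) (by omega)
  have n3 := n p (by omega)
  rw [Finset.sum_insert (by simp only [Finset.mem_insert, n3, or_false]; omega),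
    Finset.sum_insert (by simp only [Finset.mem_insert, n2, or_false]; omega), Finset.sum_insert n1] at h3
  omega

end Cfsg.Lib.SX
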