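import Cfsg.Agent.Lib.SX.Cheap

/-! # S5720: `SL(2, p)` in characteristic different from `p` -/

set_option autoImplicit false

namespace Cfsg.Lib.SX

open Module
open scoped MatrixGroups

variable {K V : Type*} [Field K] [AddCommGroup V] [Module K V] [FiniteDimensional K V] {F : ℕ}

/-- Choose `s : range f → V` with `f ∘ s = subtype` and a retraction `r : V → range f`; `r ∘ f ∘ s = id`;
base change it: `finrank (L ⊗ range f) ≤ rk (f.baseChange L)`; `Module.finrank_baseChange`, `rk_add_nl`. -/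
theorem nl_baseChange (L : Type*) [Field L] [Algebra K L] (f : End K V) : nl (f.baseChange L) ≤ nl f := by
  have : LinearMap.ker (f.baseChange L) = LinearMap.range ((LinearMap.ker f).subtype.baseChange L) :=
    Module.Flat.ker_lTensor_eq L L f
  rw [nl, this]
  exact (LinearMap.finrank_range_le _).trans_eq Module.finrank_baseChange

variable {p : ℕ} [Fact p.Prime]

theorem delta_ring {R : Type*} [Ring R] {H W A B C D : R} (h : A * B = B * A) (k : C * D = D * C) :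
    H * A + C * H - (B + D) = (H + W * B + D * W) * A + C * (H + W * B + D * W) -
      ((1 + W * A + C * W) * B + D * (1 + W * A + C * W)) := by
  simp only [add_mul, mul_add, one_mul, mul_one, mul_assoc, h]
  simp only [← mul_assoc, k]
  abel

/-- The Borel element `Δ`.  With `z = hh (-1)` (central), `L b Y = Y * uu b + z * uu (-b⁻¹) * Y` (these commute),
`R a = (1 + cc a + cc a ^ 2) * hh a⁻¹ = hh a⁻¹ + L a ww` (`cc_sq`, `hh_uu`), and
`Δ = L 1 (R a) - L a (R 1) = L 1 (hh a⁻¹) - L a 1`.  Four terms of rank `≤ F` (`rk_three`, `cc_cube`, `cc_ne`). -/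
theorem rk_delta {ρ : Representation K SL(2, ZMod p) V} (h : Bd ρ F) (a : (ZMod p)ˣ) :
    rk (ρ (hh a⁻¹) * (ρ (uu 1) + ρ (hh (-1)) * ρ (uu (-(a : ZMod p) ^ 2))) -
      (ρ (uu (a : ZMod p)) + ρ (hh (-1)) * ρ (uu (-(a⁻¹ : (ZMod p)ˣ) : ZMod p)))) ≤ 4 * F := by
  have R : ∀ b : (ZMod p)ˣ, (1 + ρ (cc b) + ρ (cc b) ^ 2) * ρ (hh b⁻¹) =
      ρ (hh b⁻¹) + ρ ww * ρ (uu (b : ZMod p)) + ρ (hh (-1)) * ρ (uu (-(b⁻¹ : (ZMod p)ˣ) : ZMod p)) * ρ ww := fun b => by
    have e1 : cc b * hh b⁻¹ = ww * uu (b : ZMod p) := by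
      rw [cc, mul_assoc ww, hh_uu, mul_assoc, mul_assoc, ← hh_mul, mul_inv_cancel, hh_one, mul_one, sq, Units.mul_inv_cancel_right]
    simp only [add_mul, one_mul, ← map_pow, ← map_mul, e1, cc_sq]
    rw [mul_assoc _ (hh b), ← hh_mul, mul_inv_cancel, hh_one, mul_one]
  have r : ∀ b : (ZMod p)ˣ, rk ((1 + ρ (cc b) + ρ (cc b) ^ 2) * ρ (hh b⁻¹)) ≤ F := fun b =>
    (rk_mul_left _ _).trans ((rk_three ρ (cc_cube b)).trans (h _ (cc_ne b)))
  have r1 := r 1
  have ra := r a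
  rw [R] at r1 ra
  simp only [inv_one, hh_one, map_one, Units.val_one] at r1
  have e2 : ρ (hh a⁻¹) * (ρ (hh (-1)) * ρ (uu (-(a : ZMod p) ^ 2))) = ρ (hh (-1)) * ρ (uu (-1)) * ρ (hh a⁻¹) := by
    simp only [← map_mul]
    rw [← mul_assoc, ← hh_neg_comm, mul_assoc, hh_uu, mul_neg, ← mul_pow, Units.inv_mul, one_pow, mul_assoc]
  rw [mul_add, e2, delta_ring (W := ρ ww) (by rw [← map_mul, ← map_mul, ← uu_add, ← uu_add, add_comm]) (by
    simp only [← map_mul, mul_assoc]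
    rw [hh_neg_comm (uu _), hh_neg_comm (uu _), ← mul_assoc (uu _), ← mul_assoc (uu _), ← uu_add, ← uu_add, add_comm])]
  exact (rk_sub _ _).trans ((add_le_add ((rk_add _ _).trans (add_le_add ((rk_mul_left _ _).trans ra) ((rk_mul_right _ _).trans ra)))
    ((rk_add _ _).trans (add_le_add ((rk_mul_left _ _).trans r1) ((rk_mul_right _ _).trans r1)))).trans (by omega))

theorem fin_le (f : End K V) (A : Submodule K V) :
    finrank K A ≤ finrank K (LinearMap.ker f ⊓ A : Submodule K V) + rk f :=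
  (fin_eq f A).trans_le (Nat.add_le_add_left (Submodule.finrank_mono LinearMap.map_le_range) _)

omit [FiniteDimensional K V] in
/-- the projections to the weight spaces of the root group -/
theorem exists_proj (ρ : Representation K SL(2, ZMod p) V) {ψ : AddChar (ZMod p) K} (hψ : ψ.IsPrimitive) (hK : (p : K) ≠ 0) :
    ∃ e : ZMod p → End K V, (∀ x k, ρ (uu x) * e k = ψ (k * x) • e k) ∧ ∑ k, e k = 1 ∧
      (∀ k l, e k * e l = if l = k then e l else 0) ∧ (∀ k x, Commute (e k) (ρ (uu x))) ∧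
      ∀ (b : (ZMod p)ˣ) k, e (b ^ 2 * k) * ρ (hh b⁻¹) = ρ (hh b⁻¹) * e k := by
  let e : ZMod p → End K V := fun k => (p : K)⁻¹ • ∑ x, ψ (-(k * x)) • ρ (uu x)
  have h1 : ∀ x k, ρ (uu x) * e k = ψ (k * x) • e k := fun x k => by
    simp only [e, mul_smul_comm, Finset.mul_sum, ← map_mul, ← uu_add]
    rw [smul_comm (ψ _), Finset.smul_sum (r := ψ _)]
    refine congrArg _ (Fintype.sum_equiv (.addLeft x) _ _ fun y => ?_)
    rw [smul_smul, ← AddChar.map_add_eq_mul, Equiv.coe_addLeft]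
    congr 2; ring
  refine ⟨e, h1, ?_, fun k l => ?_, fun k x => ?_, fun b k => ?_⟩
  · simp only [e, ← Finset.smul_sum]
    rw [Finset.sum_comm]
    simp only [← Finset.sum_smul, ← mul_neg, AddChar.sum_mulShift _ hψ, neg_eq_zero]
    simp [uu_zero, smul_smul, hK]
  · have : e k * e l = ((p : K)⁻¹ * ∑ x, ψ (x * (l - k))) • e l := by
      conv_lhs => rw [show e k = (p : K)⁻¹ • ∑ x, ψ (-(k * x)) • ρ (uu x) from rfl]
      rw [mul_smul, smul_mul_assoc, Finset.sum_mul, Finset.sum_smul]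
      refine congrArg _ (Finset.sum_congr rfl fun x _ => ?_)
      rw [smul_mul_assoc, h1, smul_smul, ← AddChar.map_add_eq_mul]
      congr 2; ring
    rw [this, AddChar.sum_mulShift _ hψ]
    simp only [sub_eq_zero]
    split_ifs <;> simp [hK]
  · refine .smul_left (.sum_left _ _ _ fun y _ => .smul_left ?_ _) _
    rw [Commute, SemiconjBy, ← map_mul, ← map_mul, ← uu_add, ← uu_add, add_comm]
  · simp only [e, mul_smul_comm, smul_mul_assoc, Finset.mul_sum, Finset.sum_mul, ← map_mul, hh_uu]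
    refine congrArg _ (Fintype.sum_equiv (b ^ 2).mulLeft _ _ fun y => ?_)
    have : ((b⁻¹ : (ZMod p)ˣ) : ZMod p) ^ 2 * (b ^ 2 * y) = y := by
      rw [← mul_assoc, ← mul_pow, Units.inv_mul, one_pow, one_mul]
    simp only [Units.mulLeft_apply, Units.val_pow_eq_pow_val, this]
    congr 3; ring

/-- Let `ψ : AddChar (ZMod p) K` be `x ↦ ζ ^ x.val` (`AddChar.zmodChar`, primitive), `e k = p⁻¹ • ∑ x, ψ (-(k * x)) • ρ (uu x)`:
`ρ (uu x) * e k = ψ (k * x) • e k`, `∑ k, e k = 1`, `e k * e l = if k = l then e k else 0`, `e k` commutes with `ρ (uu _)`,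
`z = ρ (hh (-1))`, and `e (a ^ 2 * k) * ρ (hh a⁻¹) = ρ (hh a⁻¹) * e k`.  Let `a` generate `(ZMod p)ˣ`, `Δ = ρ (hh a⁻¹) * A - B`
as in `rk_delta`.  If `Δ v = 0`, `k ≠ 0`, `e k v = 0` then `B (e (a ^ 2 * k) v) = 0`, i.e. `(α + β • z) v' = 0` with
`α = ψ (k' * a)`, `β = ψ (-k' / a)`; apply `α - β • z`: `(α ^ 2 - β ^ 2) • v' = 0`, `α ^ 2 ≠ β ^ 2` as `2 k' (a + a⁻¹) ≠ 0`
(`a ^ 4 ≠ 1`); so `e (a ^ 2 * k) v = 0`.  Hence for each `i`, `v ↦ (e 0 v, e (a ^ (2 i)) v, e (a ^ (2 i + 1)) v)` is injective on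
`ker Δ` (every unit is `a ^ (2 i + j)`), `nl Δ ≤ d 0 + d (a ^ (2 i)) + d (a ^ (2 i + 1))`, `d k = rk (e k)`.  Sum over `i < 5`:
`5 nl Δ ≤ 4 d 0 + (d 0 + ∑ j < 10, d (a ^ j)) ≤ 4 F + finrank V` (`sum_le`, `orderOf a = p - 1 ≥ 10`; `d 0 ≤ nl (ρ (uu 1) - 1)`).
With `rk_add_nl`, `rk_delta`: `5 n ≤ 20 F + 4 F + n`. -/
theorem cross0 (hp : 11 ≤ p) {ρ : Representation K SL(2, ZMod p) V} (h : Bd ρ F) {ζ : K}
    (hζ : IsPrimitiveRoot ζ p) : finrank K V ≤ 6 * F := by
  obtain ⟨ψ, hψ⟩ : ∃ ψ : AddChar (ZMod p) K, ψ.IsPrimitive := ⟨_, AddChar.zmodChar_primitive_of_primitive_root p hζ⟩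
  obtain ⟨e, e1, e2, e3, e4, e5⟩ := exists_proj ρ hψ hζ.neZero'.out
  obtain ⟨a, ha⟩ := IsCyclic.exists_generator (α := (ZMod p)ˣ)
  have oa : orderOf a = p - 1 := by rw [orderOf_eq_card_of_forall_mem_zpowers ha, Nat.card_eq_fintype_card, ZMod.card_units]
  have hD := rk_delta h a
  have cz : ∀ k, Commute (e k) (ρ (hh (-1))) := fun k => show _ = _ by simpa using e5 (-1) k
  have zz : ρ (hh (-1)) * ρ (hh (-1)) = 1 := by rw [← map_mul, ← hh_mul, neg_mul_neg, one_mul, hh_one, map_one]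
  generalize ρ (hh (-1)) = z at hD cz zz
  generalize hΔ : (_ - _ : End K V) = Δ at hD
  have st : ∀ v, Δ v = 0 → ∀ k : (ZMod p)ˣ, e k v = 0 → e (a ^ 2 * k) v = 0 := fun v hv k hk => by
    have c1 : e (a ^ 2 * k) * Δ = ρ (hh a⁻¹) * (ρ (uu 1) + z * ρ (uu (-(a : ZMod p) ^ 2))) * e k -
        (ψ (a ^ 2 * k * a) • e (a ^ 2 * k) + ψ (a ^ 2 * k * -(a⁻¹ : (ZMod p)ˣ)) • (z * e (a ^ 2 * k))) := by
      rw [← hΔ, mul_sub, ← mul_assoc, e5, mul_assoc, ((e4 k _).add_right ((cz k).mul_right (e4 k _))).eq,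
        ((e4 _ _).add_right ((cz _).mul_right (e4 _ _))).eq, add_mul (ρ (uu a)), mul_assoc z, e1, e1, mul_smul_comm, mul_assoc (ρ _)]
    have c2 := congr($c1 v)
    simp only [End.mul_apply, LinearMap.sub_apply, LinearMap.add_apply, LinearMap.smul_apply, hv, hk, map_zero] at c2
    generalize e (a ^ 2 * k) v = w at c2
    have c3 := congr(z $c2)
    simp only [map_zero, map_sub, map_add, map_smul, ← End.mul_apply z z, zz, End.one_apply] at c3
    refine (smul_eq_zero.1 (show (ψ (a ^ 2 * k * a) ^ 2 - ψ (a ^ 2 * k * -(a⁻¹ : (ZMod p)ˣ)) ^ 2) • w = 0 by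
      linear_combination (norm := module) ψ (a ^ 2 * k * a) • c2 - ψ (a ^ 2 * k * -(a⁻¹ : (ZMod p)ˣ)) • c3)).resolve_left fun c => ?_
    have c4 : ψ (2 * k * a * (a ^ 2 + 1)) = 1 := by
      have := congr($(sub_eq_zero.1 c) * ψ (a * k) ^ 2)
      simp only [← mul_pow, ← AddChar.map_add_eq_mul] at this
      rw [show (a : ZMod p) ^ 2 * k * -(a⁻¹ : (ZMod p)ˣ) + a * k = 0 by
        rw [Units.val_inv_eq_inv_val]; field_simp; ring, AddChar.map_zero_eq_one, one_pow, sq, ← AddChar.map_add_eq_mul] at this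
      rw [← this]; congr 1; ring
    have two : (2 : ZMod p) ≠ 0 := fun t => by
      have := Nat.le_of_dvd two_pos ((ZMod.natCast_eq_zero_iff 2 p).1 t); omega
    simp only [hψ.zmod_char_eq_one_iff, mul_eq_zero, two, Units.ne_zero, false_or] at c4
    have := Nat.le_of_dvd four_pos (orderOf_dvd_of_pow_eq_one (x := a) (Units.ext (by
      rw [Units.val_pow_eq_pow_val, Units.val_one]; linear_combination ((a : ZMod p) ^ 2 - 1) * c4)))
    omega
  have nb : ∀ i : ℕ, nl Δ ≤ rk (e 0) + rk (e (a ^ i)) + rk (e (a ^ (i + 1))) := fun i => by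
    have b1 := fin_le (e (a ^ i)) (LinearMap.ker Δ)
    have b2 := fin_le (e (a ^ (i + 1))) (LinearMap.ker (e (a ^ i)) ⊓ LinearMap.ker Δ)
    have b3 := fin_le (e 0) (LinearMap.ker (e (a ^ (i + 1))) ⊓ (LinearMap.ker (e (a ^ i)) ⊓ LinearMap.ker Δ))
    rw [(Submodule.eq_bot_iff (LinearMap.ker (e 0) ⊓ _)).2 ?_, finrank_bot] at b3
    · unfold nl; omega
    rintro v ⟨v0, v1, v2, v3⟩
    have : ∀ j, e (a ^ (i + j)) v = 0 := fun j => by
      induction j using Nat.twoStepInduction with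
      | zero => exact v2
      | one => exact v1
      | more j h1 _ =>
        have := st v v3 (a ^ (i + j)) h1
        rwa [Units.val_pow_eq_pow_val, ← pow_add, add_comm 2, add_assoc] at this
    rw [← End.one_apply (R := K) v, ← e2, LinearMap.sum_apply]
    refine Finset.sum_eq_zero fun k _ => ?_
    by_cases k0 : k = 0
    · exact k0 ▸ v0
    obtain ⟨j, hj⟩ := (Submonoid.mem_powers_iff _ _).1 (mem_powers_iff_mem_zpowers.2 (ha ((a ^ i)⁻¹ * .mk0 k k0)))
    have := this j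
    rwa [← Units.val_pow_eq_pow_val, pow_add, hj, mul_inv_cancel_left] at this
  have s1 := sum_le Finset.univ e (fun k => LinearMap.range (e k)) ⊤ (fun _ _ => le_top)
    (fun k _ _ ⟨v, hv⟩ => by rw [← hv, ← End.mul_apply, e3, if_pos rfl])
    fun k _ l _ n _ ⟨v, hv⟩ => by rw [← hv, ← End.mul_apply, e3, if_neg n.symm, LinearMap.zero_apply]
  have s2 : ∑ j ∈ Finset.range 10, rk (e (a ^ j)) ≤ ∑ k ∈ Finset.univ.erase 0, rk (e k) := by
    rw [← Finset.sum_image (f := fun k => rk (e k)) (g := fun j => (a : ZMod p) ^ j) fun i hi j hj n =>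
      pow_injOn_Iio_orderOf (x := a) (by simp at hi ⊢; omega) (by simp at hj ⊢; omega) (Units.ext n)]
    exact Finset.sum_le_sum_of_subset (Finset.image_subset_iff.2 fun j _ => by simp)
  rw [finrank_top, ← Finset.add_sum_erase _ _ (Finset.mem_univ 0)] at s1
  have s3 : rk (e 0) ≤ F := (rk_le_nl _ _ (by rw [sub_mul, e1]; simp)).trans (h _ (uu_ne one_ne_zero))
  have := rk_add_nl Δ
  have := nb 0; have := nb 2; have := nb 4; have := nb 6; have := nb 8
  simp only [Finset.sum_range_succ, Finset.sum_range_zero, rk, Nat.reduceAdd] at *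
  omega

/-- Base change to `AlgebraicClosure K` (`g ↦ (ρ g).baseChange L`, `nl_baseChange`), which has a primitive `p`-th root of unity
(`HasEnoughRootsOfUnity.exists_primitiveRoot` / `IsPrimitiveRoot` via `cyclotomic` roots). -/
theorem cross (hp : 11 ≤ p) {ρ : Representation K SL(2, ZMod p) V} (h : Bd ρ F) (hK : (p : K) ≠ 0) :
    finrank K V ≤ 6 * F := by
  haveI : NeZero (p : K) := ⟨hK⟩
  obtain ⟨ζ, hζ⟩ := HasEnoughRootsOfUnity.exists_primitiveRoot (AlgebraicClosure K) p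
  rw [← Module.finrank_baseChange (R := AlgebraicClosure K)]
  refine cross0 hp (ρ := (End.baseChangeHom K (AlgebraicClosure K) V).toMonoidHom.comp ρ) (fun g hg => ?_) hζ
  refine le_trans (le_of_eq ?_) ((nl_baseChange (AlgebraicClosure K) _).trans (h g hg))
  rw [LinearMap.baseChange_sub, LinearMap.baseChange_one]; rfl

end Cfsg.Lib.SX
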