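import Mathlib

/-!
# Elements with large fixed spaces (S5720): definitions

`rk`, `nl`: rank and nullity.  `Bd ρ F`: every non-identity element has fixed space of dimension
at most `F`.  The matrices `uu a`, `hh b`, `ww`, `cc a` of `SL(2, F)`; in characteristic `p` the
elements `YY i` (divided powers of the root element), `pp j` (weight projections), `EE` of the
group algebra of `SL(2, ZMod p)`.
-/

set_option autoImplicit false
set_option linter.unusedSimpArgs false
set_option linter.unusedSectionVars false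

namespace Cfsg.Lib.SX

open Module
open scoped MatrixGroups

section
variable {K V G : Type*} [Field K] [AddCommGroup V] [Module K V] [Group G]

/-- rank -/
noncomputable abbrev rk (f : End K V) : ℕ := finrank K (LinearMap.range f)
/-- nullity -/
noncomputable abbrev nl (f : End K V) : ℕ := finrank K (LinearMap.ker f)

/-- Every non-identity element has fixed space of dimension at most `F`. -/
def Bd (ρ : Representation K G V) (F : ℕ) : Prop := ∀ g : G, g ≠ 1 → nl (ρ g - 1) ≤ F

theorem Bd.comp {H : Type*} [Group H] {ρ : Representation K G V} {F : ℕ} (h : Bd ρ F) (φ : H →* G)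
    (hφ : Function.Injective φ) : Bd (ρ.comp φ : Representation K H V) F :=
  fun g hg => h (φ g) fun e => hg (hφ (e.trans φ.map_one.symm))

variable [FiniteDimensional K V] (f g : End K V)

theorem rk_add_nl : rk f + nl f = finrank K V := LinearMap.finrank_range_add_finrank_ker f

theorem rk_add : rk (f + g) ≤ rk f + rk g :=
  (Submodule.finrank_mono (LinearMap.range_add_le f g)).trans
    (Submodule.finrank_add_le_finrank_add_finrank _ _)

theorem rk_neg : rk (-f) = rk f := by rw [rk, LinearMap.range_neg]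

theorem rk_sub : rk (f - g) ≤ rk f + rk g := by
  rw [sub_eq_add_neg, ← rk_neg g]; exact rk_add _ _

theorem rk_mul_left : rk (f * g) ≤ rk f := Submodule.finrank_mono (LinearMap.range_comp_le_range g f)

theorem rk_mul_right : rk (f * g) ≤ rk g := by
  rw [rk, End.mul_eq_comp, LinearMap.range_comp]; exact Submodule.finrank_map_le _ _

theorem rk_smul (c : K) : rk (c • f) ≤ rk f := by
  rw [← one_mul f, ← smul_mul_assoc, one_mul]; exact rk_mul_right _ _

theorem rk_sum {ι : Type*} (s : Finset ι) (f : ι → End K V) : rk (∑ i ∈ s, f i) ≤ ∑ i ∈ s, rk (f i) := by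
  classical
  induction s using Finset.induction_on with
  | empty => rw [Finset.sum_empty, rk, LinearMap.range_zero, finrank_bot]; exact Nat.zero_le _
  | insert a s ha ih => rw [Finset.sum_insert ha, Finset.sum_insert ha]; exact (rk_add _ _).trans (by omega)

theorem rk_le_nl (h : f * g = 0) : rk g ≤ nl f :=
  Submodule.finrank_mono (LinearMap.range_le_ker_iff.2 h)

theorem fin_eq (A : Submodule K V) :
    finrank K A = finrank K (LinearMap.ker f ⊓ A : Submodule K V) + finrank K (A.map f) := by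
  have := LinearMap.finrank_range_add_finrank_ker (f.domRestrict A)
  rw [LinearMap.range_domRestrict, LinearMap.ker_domRestrict,
    ← Submodule.finrank_map_subtype_eq, Submodule.map_comap_subtype, inf_comm] at this
  omega

theorem nl_mul : nl (f * g) ≤ nl f + nl g := by
  have h1 := fin_eq f (LinearMap.range g)
  have h2 : finrank K (LinearMap.ker f ⊓ LinearMap.range g : Submodule K V) ≤ nl f :=
    Submodule.finrank_mono inf_le_left
  have h3 := rk_add_nl (f * g)
  have h4 := rk_add_nl g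
  rw [rk, End.mul_eq_comp, LinearMap.range_comp, ← End.mul_eq_comp] at h3
  unfold rk at h4
  omega

theorem nl_pow (n : ℕ) : nl (f ^ n) ≤ n * nl f := by
  induction n with
  | zero => rw [pow_zero, nl, End.one_eq_id, LinearMap.ker_id]; simp
  | succ n ih => rw [pow_succ, Nat.succ_mul]; exact (nl_mul _ _).trans (by omega)

theorem one_le_rk {v : V} (h : f v ≠ 0) : 1 ≤ rk f :=
  Submodule.one_le_finrank_iff.2 fun e => h ((Submodule.mem_bot K).1 (e ▸ LinearMap.mem_range_self f v))

/-- The norm element of a cyclic group has rank at most the dimension of the fixed space. -/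
theorem rk_norm (ρ : Representation K G V) {x : G} {n : ℕ} (h : x ^ n = 1) :
    rk (∑ i ∈ Finset.range n, ρ x ^ i) ≤ nl (ρ x - 1) :=
  rk_le_nl _ _ (by rw [mul_geom_sum, ← map_pow, h, map_one, sub_self])

theorem rk_three (ρ : Representation K G V) {x : G} (h : x ^ 3 = 1) :
    rk (1 + ρ x + ρ x ^ 2) ≤ nl (ρ x - 1) := by
  simpa [Finset.sum_range_succ] using rk_norm ρ h

end

section
variable {F : Type*} [Field F]

/-- upper unitriangular -/
def uu (a : F) : SL(2, F) := ⟨!![1, a; 0, 1], by simp [Matrix.det_fin_two]⟩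
/-- diagonal -/
def hh (b : Fˣ) : SL(2, F) := ⟨!![(b : F), 0; 0, (b⁻¹ : Fˣ)], by simp [Matrix.det_fin_two]⟩
/-- Weyl element -/
def ww : SL(2, F) := ⟨!![0, 1; -1, 0], by simp [Matrix.det_fin_two]⟩
/-- elements of order three -/
def cc (b : Fˣ) : SL(2, F) := ww * hh b * uu ((b⁻¹ : Fˣ) : F)

theorem co_uu (a : F) : (uu a : Matrix (Fin 2) (Fin 2) F) = !![1, a; 0, 1] := rfl
theorem co_hh (b : Fˣ) : (hh b : Matrix (Fin 2) (Fin 2) F) = !![(b : F), 0; 0, (b⁻¹ : Fˣ)] := rfl
theorem co_ww : ((ww : SL(2, F)) : Matrix (Fin 2) (Fin 2) F) = !![0, 1; -1, 0] := rfl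

theorem uu_add (a b : F) : uu (a + b) = uu a * uu b := by
  ext i j; fin_cases i <;> fin_cases j <;>
    simp [co_uu, co_hh, co_ww, cc, pow_succ, Matrix.mul_apply, Fin.sum_univ_two, add_comm]

theorem uu_zero : uu (0 : F) = 1 := by
  ext i j; fin_cases i <;> fin_cases j <;>
    simp [co_uu, co_hh, co_ww, cc, pow_succ, Matrix.mul_apply, Fin.sum_univ_two]

theorem hh_mul (a b : Fˣ) : hh (a * b) = hh a * hh b := by
  ext i j; fin_cases i <;> fin_cases j <;>
    simp [co_uu, co_hh, co_ww, cc, pow_succ, Matrix.mul_apply, Fin.sum_univ_two, mul_comm]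

theorem hh_one : hh (1 : Fˣ) = 1 := by
  ext i j; fin_cases i <;> fin_cases j <;>
    simp [co_uu, co_hh, co_ww, cc, pow_succ, Matrix.mul_apply, Fin.sum_univ_two]

theorem hh_uu (b : Fˣ) (a : F) : hh b * uu a = uu (b ^ 2 * a) * hh b := by
  ext i j; fin_cases i <;> fin_cases j <;>
    simp [co_uu, co_hh, co_ww, cc, pow_succ, Matrix.mul_apply, Fin.sum_univ_two]; field_simp

theorem ww_ww : (ww * ww : SL(2, F)) = hh (-1) := by
  ext i j; fin_cases i <;> fin_cases j <;>
    simp [co_uu, co_hh, co_ww, cc, pow_succ, Matrix.mul_apply, Fin.sum_univ_two]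

theorem ww_hh (b : Fˣ) : ww * hh b = hh b⁻¹ * ww := by
  ext i j; fin_cases i <;> fin_cases j <;>
    simp [co_uu, co_hh, co_ww, cc, pow_succ, Matrix.mul_apply, Fin.sum_univ_two]

theorem hh_neg_comm (g : SL(2, F)) : hh (-1) * g = g * hh (-1) := by
  ext i j; fin_cases i <;> fin_cases j <;>
    simp [co_uu, co_hh, co_ww, cc, pow_succ, Matrix.mul_apply, Fin.sum_univ_two]

theorem ww_uu_ww (a : Fˣ) :
    ww * uu (a : F) * ww = uu (-(a⁻¹ : Fˣ) : F) * ww * hh (-a) * uu (-(a⁻¹ : Fˣ) : F) := by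
  ext i j; fin_cases i <;> fin_cases j <;>
    simp [co_uu, co_hh, co_ww, cc, pow_succ, Matrix.mul_apply, Fin.sum_univ_two]

theorem cc_cube (b : Fˣ) : cc b ^ 3 = 1 := by
  ext i j; fin_cases i <;> fin_cases j <;>
    simp [co_uu, co_hh, co_ww, cc, pow_succ, Matrix.mul_apply, Fin.sum_univ_two]

theorem cc_sq (b : Fˣ) : cc b ^ 2 = hh (-1) * uu (-(b⁻¹ : Fˣ) : F) * ww * hh b := by
  ext i j; fin_cases i <;> fin_cases j <;>
    simp [co_uu, co_hh, co_ww, cc, pow_succ, Matrix.mul_apply, Fin.sum_univ_two]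

theorem cc_ne (b : Fˣ) : cc b ≠ 1 := fun e => by
  simpa [co_uu, co_hh, co_ww, cc, Matrix.mul_apply, Fin.sum_univ_two] using congrArg (fun g : SL(2, F) => g 0 0) e

theorem uu_ne {a : F} (h : a ≠ 0) : uu a ≠ 1 := fun e =>
  h (by simpa [co_uu] using congrArg (fun g : SL(2, F) => g 0 1) e)

/-- Bruhat decomposition. -/
theorem bruhat (g : SL(2, F)) : (∃ b a, g = hh b * uu a) ∨ ∃ a b a', g = uu a * ww * hh b * uu a' := by
  have d := g.det_coe
  rw [Matrix.det_fin_two] at d
  by_cases h : g 1 0 = 0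
  · have h0 : g 0 0 ≠ 0 := fun e => by simp [h, e] at d
    refine .inl ⟨.mk0 _ h0, g 0 1 / g 0 0, ?_⟩
    ext i j; fin_cases i <;> fin_cases j <;> simp [co_uu, co_hh, Matrix.mul_apply, Fin.sum_univ_two, h]
    · field_simp
    · field_simp; linear_combination d + g 0 1 * h
  · refine .inr ⟨g 0 0 / g 1 0, -.mk0 _ h, g 1 1 / g 1 0, ?_⟩
    ext i j; fin_cases i <;> fin_cases j <;> simp [co_uu, co_hh, co_ww, Matrix.mul_apply, Fin.sum_univ_two, h]
    · field_simp; linear_combination -d
    · field_simp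

end

section
variable (K : Type*) [Field K] (p : ℕ) [Fact p.Prime] [CharP K p]

/-- the prime field -/
abbrev io : ZMod p →+* K := ZMod.castHom (dvd_refl p) K

/-- the group algebra -/
abbrev GA := MonoidAlgebra K SL(2, ZMod p)

/-- group elements in the group algebra -/
noncomputable abbrev og : SL(2, ZMod p) →* GA K p := MonoidAlgebra.of K SL(2, ZMod p)

/-- `uu a = ∑ i < p, a ^ i • YY i`. -/
noncomputable def YY (i : ℕ) : GA K p :=
  if i = 0 then 1 else if i < p then -∑ a : ZMod p, io K p a ^ (p - 1 - i) • og K p (uu a) else 0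

/-- the projection to the weight space where `hh b` acts as `b ^ j`. -/
noncomputable def pp (j : ℕ) : GA K p := -∑ b : (ZMod p)ˣ, io K p (b⁻¹ : (ZMod p)ˣ) ^ j • og K p (hh b)

/-- the norm element of an element of order three -/
noncomputable def EE : GA K p := 1 + og K p (cc 1) + og K p (cc 1) ^ 2

variable {K p} {V : Type*} [AddCommGroup V] [Module K V]

/-- `e 0, …, e k` span a copy of the `k`-th symmetric power of the natural module. -/
structure Spc (ρ : Representation K SL(2, ZMod p) V) (k : ℕ) (e : ℕ → V) : Prop where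
  lt : k < p
  li : LinearIndependent K fun i : Fin (k + 1) => e i
  z : ∀ i, k < i → e i = 0
  y : ∀ i j, ρ.asAlgebraHom (YY K p j) (e i) = ((i + j).choose i : K) • e (i + j)
  h : ∀ (b : (ZMod p)ˣ) i, ρ (hh b) (e i) = io K p b ^ (2 * i + (p - 1 - k)) • e i
  w : ∀ i ≤ k, ρ ww (e i) = (-1 : K) ^ i • e (k - i)

/-- The inequality (★). -/
def Star (ρ : Representation K SL(2, ZMod p) V) : Prop :=
  finrank K V + 2 * rk (ρ.asAlgebraHom (pp K p 3)) ≤ 4 * rk (ρ.asAlgebraHom (EE K p)) +
    2 * rk (ρ.asAlgebraHom (YY K p 1 * pp K p (p - 2))) +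
    2 * rk (ρ.asAlgebraHom (YY K p 1 ^ (p - 4) * pp K p 3)) + rk (ρ.asAlgebraHom (YY K p 1 * pp K p 2))

end

/-- An elementary abelian subgroup of order `r ^ 2`, `r ∈ {2, 3, 5}`. -/
def Er (H : Type*) [Group H] : Prop := ∃ r : ℕ, (r = 2 ∨ r = 3 ∨ r = 5) ∧ ∃ a b : H, Commute a b ∧
  a ^ r = 1 ∧ b ^ r = 1 ∧ b ≠ 1 ∧ ∀ i : ℕ, a * b ^ i ≠ 1

/-- A quotient of the `(3, 3, 3)` triangle group. -/
def Tr (H : Type*) [Group H] : Prop := ∃ x y : H, x ^ 3 = 1 ∧ y ^ 3 = 1 ∧ (x * y) ^ 3 = 1 ∧
  x ≠ 1 ∧ y ≠ 1 ∧ x * y ≠ 1 ∧ x ≠ y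

end Cfsg.Lib.SX
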