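import Cfsg.Agent.Lib.SX.Alg

/-! # S5720: every nonzero `SL(2, p)`-module in characteristic `p` contains a symmetric power -/

set_option autoImplicit false

namespace Cfsg.Lib.SX

open Module
open scoped MatrixGroups

variable {K V : Type*} [Field K] [AddCommGroup V] [Module K V] {p : ℕ} [Fact p.Prime] [CharP K p]
  {ρ : Representation K SL(2, ZMod p) V} {κ : ℕ} {v : V}

/-- highest weight vector -/
structure Hw (ρ : Representation K SL(2, ZMod p) V) (κ : ℕ) (v : V) : Prop where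
  ne : v ≠ 0
  u : ∀ a, ρ (uu a) v = v
  h : ∀ b : (ZMod p)ˣ, ρ (hh b) v = io K p b ^ κ • v

/-- `ee ρ v i = YY i • ww • v` -/
noncomputable def ee (ρ : Representation K SL(2, ZMod p) V) (v : V) (i : ℕ) : V := ρ.asAlgebraHom (YY K p i) (ρ ww v)

/-- `X = YY 1` is nilpotent (`YY_pow_p`): some `v ≠ 0` has `X v = 0`; some `pp j v ≠ 0` (`pp_sum`); `YY_pp`, `uu_sub_one`,
`hh_pp`. -/
theorem exists_hw [Nontrivial V] : ∃ κ v, Hw ρ κ v := by
  obtain ⟨v, h0, hv⟩ : ∃ v : V, v ≠ 0 ∧ ρ.asAlgebraHom (YY K p 1) v = 0 := by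
    by_contra! h
    have k : ∀ (n : ℕ) (v : V), v ≠ 0 → ρ.asAlgebraHom (YY K p 1 ^ n) v ≠ 0 := fun n => by
      induction n with
      | zero => simp
      | succ n ih => exact fun v hv => by rw [pow_succ, map_mul, End.mul_apply]; exact ih _ (h v hv)
    obtain ⟨v, hv⟩ := exists_ne (0 : V)
    exact k p v hv (by rw [YY_pow_p, map_zero, LinearMap.zero_apply])
  obtain ⟨j, -, hj⟩ := Finset.exists_ne_zero_of_sum_ne_zero (s := Finset.range (p - 1))
    (f := fun j => ρ.asAlgebraHom (pp K p j) v) (by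
      rwa [← LinearMap.sum_apply, ← map_sum, pp_sum, map_one, End.one_apply])
  refine ⟨j, _, hj, fun a => ?_, fun b => ?_⟩
  · obtain ⟨Z, hZ⟩ := uu_sub_one (K := K) a
    rw [← ρ.asAlgebraHom_of, sub_eq_iff_eq_add.1 hZ, ← End.mul_apply, ← map_mul, add_mul, one_mul, mul_assoc, YY_pp,
      ← mul_assoc, map_add, map_mul, LinearMap.add_apply, End.mul_apply, hv, map_zero, zero_add]
  · rw [← ρ.asAlgebraHom_of, ← End.mul_apply, ← map_mul, hh_pp, map_smul, LinearMap.smul_apply]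

/-- `ww_uu_ww`, `ww_hh`-free: apply `ρ` to `ww_uu_ww`. -/
theorem Hw.rel (h : Hw ρ κ v) (a : (ZMod p)ˣ) :
    ρ ww (ρ (uu (a : ZMod p)) (ρ ww v)) = io K p (-a : (ZMod p)ˣ) ^ κ • ρ (uu (-(a⁻¹ : (ZMod p)ˣ) : ZMod p)) (ρ ww v) := by
  have := LinearMap.congr_fun (congrArg ρ (ww_uu_ww a)) v
  simpa only [map_mul, End.mul_apply, h.u, h.h, map_smul] using this

theorem uu_ee (a : ZMod p) : ρ (uu a) (ρ ww v) = ∑ i ∈ Finset.range p, io K p a ^ i • ee ρ v i := by
  rw [← ρ.asAlgebraHom_of, uu_eq, map_sum, LinearMap.sum_apply]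
  simp only [map_smul, LinearMap.smul_apply, ee]

theorem sum_split {M : Type*} [AddCommMonoid M] (f : ZMod p → M) : ∑ a, f a = f 0 + ∑ a : (ZMod p)ˣ, f a := by
  rw [Fintype.sum_eq_add_sum_subtype_ne f 0]
  exact congrArg _ (Fintype.sum_equiv unitsEquivNeZero _ _ fun _ => rfl).symm

theorem Hw.hw (h : Hw ρ κ v) (b : (ZMod p)ˣ) : ρ (hh b) (ρ ww v) = io K p (b⁻¹ : (ZMod p)ˣ) ^ κ • ρ ww v := by
  rw [← map_smul, ← h.h, ← End.mul_apply, ← End.mul_apply, ← map_mul, ← map_mul, ww_hh, inv_inv]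

theorem Hw.ww2 (h : Hw ρ κ v) : ρ ww (ρ ww v) = io K p (-1 : (ZMod p)ˣ) ^ κ • v := by
  rw [← End.mul_apply, ← map_mul, ww_ww, h.h]

theorem Hw.sig (h : Hw ρ κ v) : ρ ww (∑ a, ρ (uu a) (ρ ww v)) = io K p (-1 : (ZMod p)ˣ) ^ κ • v +
    ∑ a : (ZMod p)ˣ, io K p (-a : (ZMod p)ˣ) ^ κ • ρ (uu (-(a⁻¹ : (ZMod p)ˣ) : ZMod p)) (ρ ww v) := by
  rw [sum_split, uu_zero, map_one, End.one_apply, map_add, h.ww2, map_sum]
  simp only [h.rel]

theorem Hw.good (h : Hw ρ κ v) (g : ∑ a, ρ (uu a) (ρ ww v) = 0) : v ∈ Submodule.span K (Set.range (ee ρ v)) := by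
  have e := h.sig
  rw [g, map_zero, eq_comm, add_eq_zero_iff_eq_neg] at e
  refine (Submodule.smul_mem_iff _ (pow_ne_zero κ ((map_ne_zero (io K p)).2 (-1 : (ZMod p)ˣ).ne_zero))).1 ?_
  rw [e]
  refine neg_mem (sum_mem fun a _ => Submodule.smul_mem _ _ ?_)
  rw [uu_ee]
  exact sum_mem fun i _ => Submodule.smul_mem _ _ (Submodule.subset_span ⟨i, rfl⟩)

/-- Put `σ = ∑ a, ρ (uu a) = -YY (p - 1)` (`YY_top`), `S v = span (range (ee ρ v))`.  For `Hw ρ κ v`:
`σ v = p • v = 0`, and `ww σ ww v = ± v + ∑ a ≠ 0, (-a) ^ κ • uu (-a⁻¹) ww v` (`ww_ww`, `rel`), the sum lies in `S v` (`uu_ee`).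
So if `σ ww v = 0` then `v ∈ S v`.  Else `v₁ = σ ww v ≠ 0` is `Hw` of weight `(p - 2) κ` (`ww_hh`, `hh_uu`, reindex), and
`σ ww v₁ = (∑ a ≠ 0, (-a) ^ κ) • v₁` (`σ * uu b = σ`), which is `0` unless `p - 1 ∣ κ` (`sum_units`).  If `p - 1 ∣ κ`,
`g = v + v₁` has `ww g = g`: either `g = 0` and `v = -v₁ = ee ρ v (p - 1)`, or `g` is `Hw` of weight `0` with `g = ee ρ g 0`. -/
theorem exists_good [Nontrivial V] : ∃ κ v, Hw ρ κ v ∧ v ∈ Submodule.span K (Set.range (ee ρ v)) := by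
  obtain ⟨κ, v, h⟩ := exists_hw (ρ := ρ)
  have hσ : ∀ b w, ρ (uu b) (∑ a, ρ (uu a) w) = ∑ a, ρ (uu a) w := fun b w => by
    rw [map_sum]
    exact Fintype.sum_equiv (Equiv.addLeft b) _ _ fun a => by rw [Equiv.coe_addLeft, uu_add, map_mul, End.mul_apply]
  have hσ' : ∀ b w, ∑ a, ρ (uu a) (ρ (uu b) w) = ∑ a, ρ (uu a) w := fun b w =>
    Fintype.sum_equiv (Equiv.addRight b) _ _ fun a => by rw [Equiv.coe_addRight, uu_add, map_mul, End.mul_apply]
  have hh1 : ∀ b : (ZMod p)ˣ, ρ (hh b) (∑ a, ρ (uu a) (ρ ww v)) =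
      io K p (b⁻¹ : (ZMod p)ˣ) ^ κ • ∑ a, ρ (uu a) (ρ ww v) := fun b => by
    rw [map_sum, Finset.smul_sum]
    refine Fintype.sum_equiv (b ^ 2).mulLeft _ _ fun a => ?_
    rw [← End.mul_apply, ← map_mul, hh_uu, map_mul, End.mul_apply, h.hw, map_smul, Units.mulLeft_apply,
      Units.val_pow_eq_pow_val]
  by_cases c : (p - 1) ∣ κ
  · have e1 : ∀ b : (ZMod p)ˣ, io K p b ^ κ = 1 := fun b => by
      obtain ⟨d, rfl⟩ := c
      rw [pow_mul, io_pow, one_pow]
    have e2 : ρ ww (v + ∑ a, ρ (uu a) (ρ ww v)) = v + ∑ a, ρ (uu a) (ρ ww v) := by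
      rw [map_add, h.sig, sum_split, uu_zero, map_one, End.one_apply, add_left_comm]
      simp only [e1, one_smul]
      exact congrArg _ (congrArg _ (Fintype.sum_equiv ((Equiv.inv _).trans (Equiv.neg _)) _ _ fun a => rfl))
    by_cases g : v + ∑ a, ρ (uu a) (ρ ww v) = 0
    · refine ⟨κ, v, h, Submodule.subset_span ⟨p - 1, ?_⟩⟩
      rw [ee, YY_top, map_neg, map_sum, LinearMap.neg_apply, LinearMap.sum_apply, eq_comm, eq_neg_iff_add_eq_zero]
      simpa only [Representation.asAlgebraHom_of] using g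
    · refine ⟨0, _, ⟨g, fun a => by rw [map_add, h.u, hσ], fun b => ?_⟩, Submodule.subset_span ⟨0, ?_⟩⟩
      · rw [map_add, h.h, hh1, e1, e1, pow_zero, one_smul, one_smul, one_smul]
      · rw [ee, YY_zero, map_one, End.one_apply, e2]
  by_cases g : ∑ a, ρ (uu a) (ρ ww v) = 0
  · exact ⟨κ, v, h, h.good g⟩
  have h' : Hw ρ ((p - 2) * κ) (∑ a, ρ (uu a) (ρ ww v)) := ⟨g, fun a => hσ _ _, fun b => by
    have e : p - 1 = p - 2 + 1 := by have := (Fact.out : p.Prime).two_le; omega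
    rw [hh1, pow_mul, ← mul_one (io K p (b⁻¹ : (ZMod p)ˣ)), ← io_pow (K := K) b, e, pow_succ', ← mul_assoc,
      io_inv_mul, one_mul]⟩
  refine ⟨_, _, h', h'.good ?_⟩
  simp only [h.sig, map_add, map_smul, map_sum (ρ (uu _)), h.u, Finset.sum_add_distrib]
  rw [Finset.sum_comm]
  simp only [← Finset.smul_sum, hσ', ← Finset.sum_smul]
  rw [Finset.sum_const, Finset.card_univ, ZMod.card, ← Nat.cast_smul_eq_nsmul K, CharP.cast_eq_zero, zero_smul, smul_zero,
    zero_add, Fintype.sum_equiv (Equiv.neg _) (fun b : (ZMod p)ˣ => io K p (-b : (ZMod p)ˣ) ^ κ)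
      (fun b => io K p b ^ κ) fun _ => rfl, sum_units, if_neg c, zero_smul]

theorem ee_y (i j : ℕ) : ρ.asAlgebraHom (YY K p j) (ee ρ v i) = ((i + j).choose i : K) • ee ρ v (i + j) := by
  rw [ee, ← End.mul_apply, ← map_mul, YY_mul, map_smul, LinearMap.smul_apply, ee]

theorem choose_ne {i m : ℕ} (h : m ≤ i) (hi : i < p) : (i.choose m : K) ≠ 0 := fun e =>
  hi.not_ge ((Fact.out : p.Prime).dvd_factorial.1 (((CharP.cast_eq_zero_iff K p _).1 e).trans
    ⟨_, by rw [← Nat.choose_mul_factorial_mul_factorial h, mul_assoc]⟩))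

/-- triangularity -/
theorem ee_tri {k : ℕ} (hk : k < p) (z : ∀ i, k < i → ee ρ v i = 0) (n : ee ρ v k ≠ 0) (c : Fin (k + 1) → K)
    (i : Fin (k + 1)) (H : ∀ j ≤ i, ρ.asAlgebraHom (YY K p (k - j)) (∑ j, c j • ee ρ v j) = 0) : c i = 0 := by
  induction i using WellFoundedLT.induction with
  | ind i ih =>
    have e := H i le_rfl
    have l := Nat.lt_succ_iff.1 i.2
    rw [map_sum, Finset.sum_eq_single_of_mem i (Finset.mem_univ _) fun j _ hj => ?_, map_smul, ee_y,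
      Nat.add_sub_of_le l] at e
    · exact (smul_eq_zero.1 e).resolve_right (smul_ne_zero (choose_ne l hk) n)
    rcases lt_or_gt_of_ne hj with a | a
    · rw [ih j a fun t ht => H t (ht.trans a.le), zero_smul, map_zero]
    · rw [map_smul, ee_y, z _ (by have : i.1 < j.1 := a; omega), smul_zero, smul_zero]

/-- `k + 1` least with `ee (k + 1) = 0` (`ee 0 ≠ 0`, `ee p = 0`); `(i + 1) • ee (i + 1) = YY 1 • ee i`.  Independence: apply `YY (k - i)`
for `i = 0, 1, …` (`ee_y`, `p ∤ k.choose i`). -/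
theorem exists_len (h : v ≠ 0) : ∃ k < p, (LinearIndependent K fun i : Fin (k + 1) => ee ρ v i) ∧ ∀ i, k < i → ee ρ v i = 0 := by
  classical
  have hp : ∀ i, p ≤ i → ee ρ v i = 0 := fun i hi => by rw [ee, YY_big hi, map_zero, LinearMap.zero_apply]
  have ex : ∃ m, ee ρ v (m + 1) = 0 := ⟨p - 1, hp _ (by omega)⟩
  have hk : Nat.find ex < p := (Nat.find_le (hp _ (by omega))).trans_lt (Nat.sub_lt (Fact.out : p.Prime).pos one_pos)
  have z : ∀ i, Nat.find ex < i → ee ρ v i = 0 := fun i hi => by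
    refine (le_or_gt p i).elim (hp i) fun l => ?_
    have := ee_y (ρ := ρ) (v := v) (Nat.find ex + 1) (i - (Nat.find ex + 1))
    rw [Nat.find_spec ex, map_zero, Nat.add_sub_of_le hi, eq_comm] at this
    exact (smul_eq_zero.1 this).resolve_left (choose_ne hi l)
  have n : ee ρ v (Nat.find ex) ≠ 0 := by
    rcases e : Nat.find ex with _ | m
    · rw [ee, YY_zero, map_one, End.one_apply]
      exact fun e => h (by simpa using congrArg (ρ ww⁻¹) e)
    · exact Nat.find_min ex (e ▸ m.lt_succ_self)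
  exact ⟨_, hk, Fintype.linearIndependent_iff.2 fun c e i => ee_tri hk z n c i fun j _ => by rw [e, map_zero], z⟩

/-- `v` is killed by `YY 1` (`p ≥ 3`: `∑ a, a ^ (p - 2) = 0`) and lies in the span, `YY 1 • ee i = (i + 1) • ee (i + 1)`: so `v ∈ K • ee k`.
Then `ww (ee 0) = ± v = μ • ee k` with `μ ≠ 0` and `ww (ee k) = μ⁻¹ • ± ee 0`. -/
theorem Hw.top (hp : 3 ≤ p) (h : Hw ρ κ v) (hv : v ∈ Submodule.span K (Set.range (ee ρ v))) {k : ℕ} (hk : k < p)
    (li : LinearIndependent K fun i : Fin (k + 1) => ee ρ v i) (z : ∀ i, k < i → ee ρ v i = 0) :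
    ∃ μ : K, μ ≠ 0 ∧ ρ ww (ee ρ v 0) = μ • ee ρ v k ∧ ρ ww (ee ρ v k) = (μ⁻¹ * (-1) ^ κ) • ee ρ v 0 := by
  have y1 : ρ.asAlgebraHom (YY K p 1) v = 0 := by
    rw [YY, if_neg one_ne_zero, if_pos (by omega), map_neg, map_sum, LinearMap.neg_apply, LinearMap.sum_apply]
    simp only [map_smul, LinearMap.smul_apply, Representation.asAlgebraHom_of, h.u, ← Finset.sum_smul, ← map_pow, ← map_sum]
    rw [FiniteField.sum_pow_lt_card_sub_one _ _ (by rw [ZMod.card]; omega), map_zero, zero_smul, neg_zero]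
  obtain ⟨c, hc⟩ := (Submodule.mem_span_range_iff_exists_fun K).1 (Submodule.span_le.2 (by
    rintro _ ⟨i, rfl⟩
    rcases le_or_gt i k with l | l
    · exact Submodule.subset_span ⟨⟨i, Nat.lt_succ_of_le l⟩, rfl⟩
    · rw [z i l]
      exact zero_mem _) hv : v ∈ Submodule.span K (Set.range fun i : Fin (k + 1) => ee ρ v i))
  rw [Finset.sum_eq_single_of_mem (Fin.last k) (Finset.mem_univ _) fun i _ hi => by
    rw [ee_tri hk z (li.ne_zero (Fin.last k)) c i fun j hj => ?_, zero_smul]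
    have : i.1 < k := Fin.val_lt_last hi
    obtain ⟨Z, hZ⟩ := YY_dvd (K := K) (p := p) (i := k - j) (by omega)
    rw [hc, hZ, map_mul, End.mul_apply, y1, map_zero], Fin.val_last] at hc
  have c0 : c (Fin.last k) ≠ 0 := fun e => h.ne (by rw [← hc, e, zero_smul])
  have e0 : ee ρ v 0 = ρ ww v := by rw [ee, YY_zero, map_one, End.one_apply]
  have s : (-1 : K) ^ κ ≠ 0 := pow_ne_zero _ (by simp)
  refine ⟨(-1) ^ κ * c (Fin.last k), mul_ne_zero s c0, ?_, ?_⟩
  · rw [e0, h.ww2, mul_smul, hc]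
    simp
  · rw [mul_inv, mul_right_comm, inv_mul_cancel₀ s, one_mul, e0, eq_inv_smul_iff₀ c0, ← map_smul, hc]

theorem Hw.rel' (h : Hw ρ κ v) (a : (ZMod p)ˣ) : ∑ i ∈ Finset.range p, io K p a ^ i • ρ ww (ee ρ v i) =
    ∑ j ∈ Finset.range p, (io K p (-a : (ZMod p)ˣ) ^ κ * io K p ((-a)⁻¹ : (ZMod p)ˣ) ^ j) • ee ρ v j := by
  have := h.rel a
  rw [uu_ee, uu_ee, map_sum, Finset.smul_sum] at this
  simpa only [map_smul, smul_smul, inv_neg, Units.val_neg] using this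

/-- By `rel`, `uu_ee`: `∑ i, a ^ i • ww (ee i) = ∑ j ≤ k, (-a) ^ κ * (-a⁻¹) ^ j • ee j` for all units `a`.  (1) `κ ≡ k [MOD p - 1]`: apply
a functional `φ` with `φ (ee i) = if i = k then 1 else 0` (`LinearIndependent` extends; `Module.Projective.exists_dual..`,
`LinearMap.exists_extend`); the right side is `± a ^ r`, `r < p - 1`, `r + k ≡ κ`; if `r ≠ 0`, `uniq_units` gives
`φ (ww (ee 0)) + φ (ww (ee (p - 1))) = 0`, i.e. `μ = 0` (`top`; `k > 0` if `k = p - 1`). -/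
theorem Hw.wt (hp : 3 ≤ p) (h : Hw ρ κ v) (hv : v ∈ Submodule.span K (Set.range (ee ρ v))) {k : ℕ} (hk : k < p)
    (li : LinearIndependent K fun i : Fin (k + 1) => ee ρ v i) (z : ∀ i, k < i → ee ρ v i = 0) : κ ≡ k [MOD p - 1] := by
  by_contra c
  obtain ⟨μ, h0, h1, h2⟩ := h.top hp hv hk li z
  obtain ⟨φ, a, b⟩ := LinearMap.exists_extend_of_notMem (0 : _ →ₗ[K] K)
    (li.notMem_span_image (s := {Fin.last k}ᶜ) (x := Fin.last k) (by simp)) 1
  have f : ∀ i ≠ k, φ (ee ρ v i) = 0 := fun i hi => by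
    rcases lt_or_gt_of_ne hi with l | l
    · exact LinearMap.congr_fun a ⟨_, Submodule.subset_span ⟨⟨i, by omega⟩, fun e => hi (congrArg Fin.val e), rfl⟩⟩
    · rw [z i l, map_zero]
  have e : ∑ a : (ZMod p)ˣ, ∑ i ∈ Finset.range p, io K p a ^ i * φ (ρ ww (ee ρ v i)) = 0 := by
    refine (Fintype.sum_equiv (Equiv.neg _) _ _ fun a => ?_).trans ((sum_units' k κ).trans (if_neg fun e => c e.symm))
    have := congrArg φ (h.rel' a)
    rw [map_sum, map_sum, eq_comm, Finset.sum_eq_single_of_mem k (Finset.mem_range.2 hk) fun i _ hi => by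
      rw [map_smul, f i hi, smul_zero]] at this
    simp only [map_smul, smul_eq_mul] at this
    rw [← this, show φ (ee ρ v k) = 1 from b, mul_one, mul_comm]
    rfl
  rw [Finset.sum_comm] at e
  simp only [← Finset.sum_mul, sum_units] at e
  rw [Finset.sum_eq_add_of_mem 0 (p - 1) (Finset.mem_range.2 (by omega)) (Finset.mem_range.2 (by omega)) (by omega)
    fun i hi l => by
      rw [if_neg fun d => l.2 (le_antisymm (by rw [Finset.mem_range] at hi; omega) (Nat.le_of_dvd (by omega) d)), zero_mul],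
    if_pos (dvd_zero _), if_pos dvd_rfl, h1, map_smul, show φ (ee ρ v k) = 1 from b] at e
  have : φ (ρ ww (ee ρ v (p - 1))) = 0 := by
    by_cases l : k = p - 1
    · rw [← l, h2, map_smul, f 0 (by omega), smul_zero]
    · rw [z _ (by omega), map_zero, map_zero]
  exact h0 (by simpa [this] using e)

/-- (2) With `κ ≡ k`: `y i = ww (ee i) - (if i ≤ k then (-1) ^ i • ee (k - i) else 0)` has `∑ i < p, a ^ i • y i = 0` for units `a`
(reflect the sum); `uniq_units`; if `k < p - 1` then `y (p - 1) = 0`; if `k = p - 1`, `y 0 + y k = (μ - 1) • ee k + (μ⁻¹ - 1) • ee 0`,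
so `μ = 1`.  Field `h`: `hh_YY`, `ww_hh`, `b⁻¹ ^ κ = b ^ (p - 1 - k)`. -/
theorem Hw.spc (hp : 3 ≤ p) (h : Hw ρ κ v) (hv : v ∈ Submodule.span K (Set.range (ee ρ v))) : ∃ k, Spc ρ k (ee ρ v) := by
  obtain ⟨k, hk, li, z⟩ := exists_len (ρ := ρ) h.ne
  have c := h.wt hp hv hk li z
  refine ⟨k, hk, li, z, ee_y, fun b i => ?_, fun i hi => ?_⟩
  · rw [ee, ← ρ.asAlgebraHom_of, ← End.mul_apply, ← map_mul, hh_YY, map_smul, map_mul, LinearMap.smul_apply, End.mul_apply,
      ρ.asAlgebraHom_of, h.hw, map_smul, smul_smul, pow_add, pow_eq_pow_of_modEq c (io_pow _),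
      ← mul_one (io K p (b⁻¹ : (ZMod p)ˣ) ^ k), ← io_pow (K := K) b, show p - 1 = k + (p - 1 - k) by omega, pow_add,
      ← mul_assoc (_ ^ k), ← mul_pow, io_inv_mul, one_pow, one_mul, Nat.add_sub_cancel_left]
  obtain ⟨h1, h2⟩ := uniq_units (K := K) (p := p)
    (fun i => ρ ww (ee ρ v i) - if i ≤ k then (-1 : K) ^ i • ee ρ v (k - i) else 0) fun a => by
      have s := Finset.range_subset_range.2 (Nat.succ_le_of_lt hk)
      simp only [smul_sub, Finset.sum_sub_distrib, h.rel']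
      rw [sub_eq_zero, ← Finset.sum_subset s fun j _ hj => by rw [z j (by simpa using hj), smul_zero],
        ← Finset.sum_subset s fun j _ hj => by rw [if_neg (by simpa using hj), smul_zero], ← Finset.sum_range_reflect]
      refine Finset.sum_congr rfl fun j hj => ?_
      have l := Nat.lt_succ_iff.1 (Finset.mem_range.1 hj)
      rw [if_pos l, Nat.succ_sub_one, smul_smul, pow_eq_pow_of_modEq c (io_pow _), ← Nat.add_sub_of_le l, pow_add,
        Nat.add_sub_cancel_left, mul_assoc, ← mul_pow, mul_comm (io K p _) (io K p _), io_inv_mul, one_pow, mul_one,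
        ← mul_pow]
      simp
  have key : ρ ww (ee ρ v (p - 1)) - (if p - 1 ≤ k then (-1 : K) ^ (p - 1) • ee ρ v (k - (p - 1)) else 0) = 0 := by
    rw [if_pos (Nat.zero_le k)] at h2
    split_ifs at h2 ⊢ with l
    · obtain rfl : k = p - 1 := by omega
      obtain ⟨μ, -, e1, e2⟩ := h.top hp hv hk li z
      rw [e1, e2, Nat.sub_self, ← sub_smul, Nat.sub_zero, ← sub_smul] at h2
      have := congrArg (ρ.asAlgebraHom (YY K p (p - 1))) h2
      rw [map_add, map_smul, map_smul, ee_y, ee_y, z _ (by omega), smul_zero, smul_zero, zero_add, zero_add,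
        Nat.choose_zero_right, Nat.cast_one, one_smul, map_zero] at this
      rw [e2, Nat.sub_self, ← sub_smul, (smul_eq_zero.1 this).resolve_right (li.ne_zero (Fin.last _)), zero_smul]
    · rw [z _ (by omega), map_zero, sub_zero]
  have : ρ ww (ee ρ v i) - (if i ≤ k then (-1 : K) ^ i • ee ρ v (k - i) else 0) = 0 := by
    rcases Nat.eq_zero_or_pos i with rfl | l
    · rwa [key, add_zero] at h2
    by_cases l' : i = p - 1
    · rw [l', key]
    · exact h1 i l (by omega)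
  rwa [if_pos hi, sub_eq_zero] at this

theorem exists_spc (hp : 3 ≤ p) [Nontrivial V] : ∃ k e, Spc ρ k e :=
  let ⟨_, _, h, hv⟩ := exists_good (ρ := ρ); let ⟨k, hk⟩ := h.spc hp hv; ⟨k, _, hk⟩

end Cfsg.Lib.SX
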