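import Cfsg.Agent.Lib.SX.Trace

/-! # S5720: the inequality (★) for symmetric powers -/

set_option autoImplicit false

namespace Cfsg.Lib.SX

open Module
open scoped MatrixGroups

variable {K V : Type*} [Field K] [AddCommGroup V] [Module K V] {p : ℕ} [Fact p.Prime] [CharP K p]
  {ρ : Representation K SL(2, ZMod p) V} {k : ℕ} {e : ℕ → V}

/-- `bruhat`; `uu_e`, `h.h`, `h.w`, `h.z`. -/
theorem Spc.inv (h : Spc ρ k e) (g : SL(2, ZMod p)) :
    Submodule.span K (Set.range e) ≤ (Submodule.span K (Set.range e)).comap (ρ g) := by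
  have m : ∀ i, e i ∈ Submodule.span K (Set.range e) := fun i => Submodule.subset_span ⟨i, rfl⟩
  have k0 : ∀ g, (∀ i, ρ g (e i) ∈ Submodule.span K (Set.range e)) → ∀ v ∈ Submodule.span K (Set.range e),
      ρ g v ∈ Submodule.span K (Set.range e) := fun g H v hv =>
    (Submodule.span_le (p := .comap (ρ g) (.span K (Set.range e)))).2 (Set.range_subset_iff.2 H) hv
  have k1 := fun a => k0 (uu a) fun i => h.uu_e a i ▸ sum_mem fun j _ => Submodule.smul_mem _ _ (m _)
  have k2 := fun b => k0 (hh b) fun i => h.h b i ▸ Submodule.smul_mem _ _ (m _)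
  have k3 := k0 ww fun i => (le_or_gt i k).elim (fun l => h.w i l ▸ Submodule.smul_mem _ _ (m _)) fun l => by simp [h.z i l]
  intro v hv
  rcases bruhat g with ⟨b, a, rfl⟩ | ⟨a, b, a', rfl⟩ <;> simp only [Submodule.mem_comap, map_mul, End.mul_apply]
  exacts [k2 _ _ (k1 _ _ hv), k1 _ _ (k3 _ (k2 _ _ (k1 _ _ hv)))]

theorem Spc.pp_e (h : Spc ρ k e) (j i : ℕ) :
    ρ.asAlgebraHom (pp K p j) (e i) = if j ≡ 2 * i + (p - 1 - k) [MOD p - 1] then e i else 0 :=
  pp_apply ρ (fun b => h.h b i) j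

/-- `YY_pow`, `h.y`; factorials and binomials of numbers `< p` are nonzero in `K`; `h.li.ne_zero`. -/
theorem Spc.pow_ne (h : Spc ρ k e) {i m : ℕ} (hm : i + m ≤ k) : ρ.asAlgebraHom (YY K p 1 ^ m) (e i) ≠ 0 := by
  rw [YY_pow, map_smul, LinearMap.smul_apply, h.y, smul_smul, ← Nat.cast_mul]
  refine smul_ne_zero (fun c => ?_) (h.li.ne_zero ⟨i + m, Nat.lt_succ_of_le hm⟩)
  have := ((CharP.cast_eq_zero_iff K p _).1 c).mul_right i.factorial
  rw [mul_comm m.factorial, add_comm, Nat.add_choose_mul_factorial_mul_factorial, (Fact.out : p.Prime).dvd_factorial] at this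
  have := h.lt
  omega

/-- `range ≤ span (e '' J)`, `finrank_span_finset_le_card`. -/
theorem Spc.rk_pp (h : Spc ρ k e) (hs : ⊤ ≤ Submodule.span K (Set.range e)) (j : ℕ) (J : Finset ℕ)
    (hJ : ∀ i ≤ k, j ≡ 2 * i + (p - 1 - k) [MOD p - 1] → i ∈ J) : rk (ρ.asAlgebraHom (pp K p j)) ≤ J.card := by
  classical
  have b : finrank K (Submodule.span K (J.image e : Set V)) ≤ _ := finrank_span_finset_le_card (R := K) (J.image e)
  refine (Submodule.finrank_mono ?_).trans (b.trans Finset.card_image_le)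
  rw [LinearMap.range_eq_map]
  refine (Submodule.map_mono hs).trans (Submodule.map_span_le _ _ _ |>.2 ?_)
  rintro _ ⟨i, rfl⟩
  rw [h.pp_e]
  split_ifs with c
  · rcases le_or_gt i k with l | l
    · exact Submodule.subset_span (Finset.mem_image_of_mem e (hJ i l c))
    · rw [h.z i l]; exact zero_mem _
  · exact zero_mem _

/-- `finrank V = k + 1` (`exists_basis`), `f = rk EE` with `rk_EE`, `tau_eq`: `k + 1 ≤ 4 f` unless `k = 1` or `k = 4` (then `4 ≤ 4 f`).
Congruences: `0 ≤ 2 i + (p - 1 - k) ≤ p - 1 + k < 2 (p - 1) + 1`, so `j ≡ 2 i + (p - 1 - k)` for `j < p - 1` iff the right side is `j`,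
`j + (p - 1)` (or `j + 2 (p - 1)`); `p` is odd.
* `k` even: `rk (pp 3) = 0` (`rk_pp` with `J = ∅`, parity); for `k = 4`, `YY 1 * pp 2` does not kill `e 3` (`one_le_rk`, `pow_ne`).
* `k` odd: `YY 1 * pp (p - 2)` does not kill `e ((k - 1) / 2)`.  `k = 1`: `rk (pp 3) = 0`.  `3 ≤ k < p - 4`: `J = {(k + 3) / 2}`.
`p - 4 ≤ k`: `J = {(k + 3) / 2, (k + 4 - p) / 2}` and `YY 1 ^ (p - 4) * pp 3` does not kill `e ((k + 4 - p) / 2)`. -/
theorem Spc.star (hp : 11 ≤ p) (h : Spc ρ k e) (hs : ⊤ ≤ Submodule.span K (Set.range e)) : Star ρ := by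
  obtain ⟨b, -⟩ := h.exists_basis hs
  have := Module.Finite.of_basis b
  have n : finrank K V = k + 1 := by rw [finrank_eq_card_basis b, Fintype.card_fin]
  have f := h.rk_EE (by omega) hs
  have lt := h.lt
  have odd := (Fact.out : p.Prime).eq_two_or_odd
  have key : ∀ i ≤ k, 3 ≡ 2 * i + (p - 1 - k) [MOD p - 1] → 2 * i + (p - 1 - k) = 3 ∨ 2 * i + (p - 1 - k) = p + 2 := fun i l c => by
    have := Nat.div_add_mod (2 * i + (p - 1 - k)) (p - 1)
    rw [← c, Nat.mod_eq_of_lt (by omega)] at this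
    generalize (_ / _ : ℕ) = q at this
    rcases q with _ | _ | q <;> simp only [mul_add, mul_zero] at this <;> omega
  have one : ∀ i m j, i + m ≤ k → j ≡ 2 * i + (p - 1 - k) [MOD p - 1] → 1 ≤ rk (ρ.asAlgebraHom (YY K p 1 ^ m * pp K p j)) :=
    fun i m j l c => one_le_rk _ (v := e i) (by rw [map_mul, End.mul_apply, h.pp_e, if_pos c]; exact h.pow_ne l)
  rw [tau_eq] at f
  rw [SX.Star, n]
  rcases Nat.mod_two_eq_zero_or_one k with k2 | k2
  · have := h.rk_pp hs 3 ∅ fun i l c => by have := key i l c; omega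
    have : k = 4 → _ := fun k4 => one 3 1 2 (by omega) (by
      rw [show 2 * 3 + (p - 1 - k) = 2 + (p - 1) by omega]; exact (Nat.add_modEq_right).symm)
    rw [pow_one] at this
    rw [Finset.card_empty] at *
    split_ifs at f <;> omega
  have a1 := one ((k - 1) / 2) 1 (p - 2) (by omega) (by rw [show 2 * ((k - 1) / 2) + (p - 1 - k) = p - 2 by omega])
  rw [pow_one] at a1
  by_cases k1 : k = 1
  · have := h.rk_pp hs 3 ∅ fun i l c => by have := key i l c; omega
    rw [Finset.card_empty] at this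
    omega
  rcases lt_or_ge k (p - 4) with l4 | l4
  · have := h.rk_pp hs 3 {(k + 3) / 2} fun i l c => by have := key i l c; rw [Finset.mem_singleton]; omega
    rw [Finset.card_singleton] at this
    split_ifs at f <;> omega
  · have := (h.rk_pp hs 3 {(k + 3) / 2, (k + 4 - p) / 2} fun i l c => by
      have := key i l c; rw [Finset.mem_insert, Finset.mem_singleton]; omega).trans Finset.card_le_two
    have := one ((k + 4 - p) / 2) (p - 4) 3 (by omega) (by rw [show 2 * ((k + 4 - p) / 2) + (p - 1 - k) = 3 by omega])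
    split_ifs at f <;> omega

end Cfsg.Lib.SX
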