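import Cfsg.Agent.Lib.SX.Good
import Cfsg.Agent.Lib.SX.StarS
import Cfsg.Agent.Lib.SX.Bor
import Cfsg.Agent.Lib.SX.Cross

/-! # S5720: the case of `SL(2, p)` -/

set_option autoImplicit false

namespace Cfsg.Lib.SX

open Module
open scoped MatrixGroups

universe v

variable {K : Type*} [Field K] {p : ℕ} [Fact p.Prime]

theorem Spc.sub [CharP K p] {V : Type*} [AddCommGroup V] [Module K V] {ρ : Representation K SL(2, ZMod p) V} {k : ℕ} {e : ℕ → V}
    (h : Spc ρ k e) : Spc (ρ.subrepresentation _ h.inv) k fun i => ⟨e i, Submodule.subset_span ⟨i, rfl⟩⟩ where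
  lt := h.lt
  li := LinearIndependent.of_comp (Submodule.subtype _) h.li
  z i hi := Subtype.ext (h.z i hi)
  y i j := Subtype.ext ((alg_sub _ h.inv _ _).symm.trans (h.y i j))
  h b i := Subtype.ext (h.h b i)
  w i hi := Subtype.ext (h.w i hi)

theorem star [CharP K p] (hp : 11 ≤ p) (n : ℕ) : ∀ (V : Type v) [AddCommGroup V] [Module K V] [FiniteDimensional K V]
    (ρ : Representation K SL(2, ZMod p) V), finrank K V = n → Star ρ := by
  induction n using Nat.strong_induction_on with
  | _ n ih =>
  intro V _ _ _ ρ hn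
  rcases subsingleton_or_nontrivial V with h | h
  · have : rk (ρ.asAlgebraHom (pp K p 3)) = 0 := finrank_zero_of_subsingleton
    have : finrank K V = 0 := finrank_zero_of_subsingleton
    unfold Star; omega
  obtain ⟨k, e, he⟩ := exists_spc (ρ := ρ) (by omega)
  set S := Submodule.span K (Set.range e)
  have h1 : Star (ρ.subrepresentation S he.inv) := he.sub.star hp fun x _ => by
    obtain ⟨x, hx⟩ := x
    induction hx using Submodule.span_induction with
    | mem x hx => obtain ⟨i, rfl⟩ := hx; exact Submodule.subset_span ⟨i, rfl⟩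
    | zero => exact Submodule.zero_mem _
    | add x y _ _ a b => exact Submodule.add_mem _ (a trivial) (b trivial)
    | smul c x _ a => exact Submodule.smul_mem _ c (a trivial)
  have h2 := S.finrank_quotient_add_finrank
  have h3 : 1 ≤ finrank K S := Submodule.one_le_finrank_iff.2 fun h0 => he.li.ne_zero 0
    ((Submodule.mem_bot K).1 (h0 ▸ Submodule.subset_span ⟨0, rfl⟩))
  have h4 := ih _ (by omega) _ (ρ.quotient S he.inv) rfl
  have s := fun x => rk_super S _ _ _ (alg_sub S he.inv x) (alg_quot S he.inv x)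
  have h5 := rk_idem S _ _ _ (by rw [← map_mul, pp_mul, if_pos (Nat.ModEq.refl _)]) (alg_sub S he.inv (pp K p 3))
    (alg_quot S he.inv (pp K p 3))
  have := s (EE K p)
  have := s (YY K p 1 * pp K p (p - 2))
  have := s (YY K p 1 ^ (p - 4) * pp K p 3)
  have := s (YY K p 1 * pp K p 2)
  unfold Star at *
  omega

variable {V : Type*} [AddCommGroup V] [Module K V] [FiniteDimensional K V] {ρ : Representation K SL(2, ZMod p) V} {F : ℕ}

theorem defc [CharP K p] (hp : 11 ≤ p) (h : Bd ρ F) : finrank K V ≤ 6 * F := by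
  have h1 := star hp _ V ρ rfl
  have h2 := bor (ρ := ρ) hp
  have h3 : rk (ρ.asAlgebraHom (EE K p)) ≤ F := by
    simp only [EE, map_add, map_one, map_pow, Representation.asAlgebraHom_of]
    exact (rk_three ρ (cc_cube 1)).trans (h _ (cc_ne 1))
  have h4 : nl (ρ.asAlgebraHom (YY K p 1)) ≤ F := by
    obtain ⟨Z, hZ⟩ := uu_sub_one (K := K) (1 : ZMod p)
    have := congrArg ρ.asAlgebraHom hZ
    rw [map_sub, map_one, map_mul, Representation.asAlgebraHom_of] at this
    exact (Submodule.finrank_mono (this ▸ LinearMap.ker_le_ker_comp _ _)).trans (h _ (uu_ne one_ne_zero))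
  unfold Star at h1
  omega

/-- an element of order three -/
def x7 : SL(2, ZMod 7) := ⟨!![2, 0; 0, 4], by decide⟩
/-- an element of order three -/
def y7 : SL(2, ZMod 7) := ⟨!![2, 1; 0, 4], by decide⟩

theorem tr_seven : Tr SL(2, ZMod 7) := ⟨x7, y7, by decide +kernel⟩

theorem sl2 (hp : 7 ≤ p) (h : Bd ρ F) : finrank K V ≤ 6 * F := by
  by_cases h7 : p = 7
  · subst h7; exact tr_seven.le h
  have h11 : 11 ≤ p := by
    have := (Fact.out : p.Prime)
    by_contra! h; interval_cases p <;> first | omega | exact absurd this (by decide)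
  by_cases hK : (p : K) = 0
  · have := (CharP.charP_iff_prime_eq_zero Fact.out).2 hK
    exact defc h11 h
  exact cross h11 h hK

end Cfsg.Lib.SX
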