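import Cfsg.Agent.Lib.SX.Alg

/-! # S5720: fixed space of an element of order three on a symmetric power -/

set_option autoImplicit false

namespace Cfsg.Lib.SX

open Module
open scoped MatrixGroups

variable {K V : Type*} [Field K] [AddCommGroup V] [Module K V] {p : ℕ} [Fact p.Prime] [CharP K p]
  {ρ : Representation K SL(2, ZMod p) V} {k : ℕ} {e : ℕ → V}

/-- the trace of `cc 1` on the `k`-th symmetric power -/
def tau (k : ℕ) : ℤ := ∑ i ∈ Finset.range (k + 1), (-1) ^ (k - i) * ((k - i).choose i : ℤ)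

theorem tau_rec (k : ℕ) : tau (k + 2) = -tau (k + 1) - tau k := by
  have e : ∀ k, tau k = ∑ q ∈ Finset.HasAntidiagonal.antidiagonal k, (-1) ^ q.2 * (q.2.choose q.1 : ℤ) := fun k =>
    (Finset.Nat.sum_antidiagonal_eq_sum_range_succ_mk (fun q : ℕ × ℕ => (-1) ^ q.2 * (q.2.choose q.1 : ℤ)) k).symm
  rw [e, e, e, Finset.Nat.sum_antidiagonal_succ, Finset.Nat.sum_antidiagonal_succ',
    Finset.Nat.sum_antidiagonal_succ]
  simp only [Nat.choose_succ_succ', pow_succ, Nat.cast_add, mul_add, Finset.sum_add_distrib, mul_neg, mul_one,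
    neg_mul, Finset.sum_neg_distrib, Nat.choose_zero_right, Nat.choose_zero_succ, Nat.cast_one, Nat.cast_zero]
  ring

/-- `tau (k + 2) = - tau (k + 1) - tau k` by Pascal (compare `Nat.fib_succ_eq_sum_choose`; `Finset.Nat.sum_antidiagonal_eq_sum_range_succ`). -/
theorem tau_eq (k : ℕ) : tau k = if k % 3 = 0 then 1 else if k % 3 = 1 then -1 else 0 := by
  induction k using Nat.twoStepInduction with
  | zero => rfl
  | one => rfl
  | more k h1 h2 =>
    rw [tau_rec, h1, h2]
    split_ifs <;> omega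

/-- the basis `e 0, …, e k` (`e i = 0` for `i > k`) -/
theorem Spc.exists_basis (h : Spc ρ k e) (hs : ⊤ ≤ Submodule.span K (Set.range e)) :
    ∃ b : Basis (Fin (k + 1)) K V, ∀ i, b i = e i := by
  refine ⟨Basis.mk h.li (hs.trans (Submodule.span_le.2 ?_)), fun i => Basis.mk_apply _ _ i⟩
  rintro _ ⟨i, rfl⟩
  rcases le_or_gt i k with l | l
  · exact Submodule.subset_span ⟨⟨i, Nat.lt_succ_of_le l⟩, rfl⟩
  · rw [h.z i l]
    exact zero_mem _

theorem Spc.uu_e (h : Spc ρ k e) (a : ZMod p) (i : ℕ) :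
    ρ (uu a) (e i) = ∑ j ∈ Finset.range p, (io K p a ^ j * ((i + j).choose i : K)) • e (i + j) := by
  rw [← ρ.asAlgebraHom_of, uu_eq, map_sum, LinearMap.sum_apply]
  exact Finset.sum_congr rfl fun j _ => by rw [map_smul, LinearMap.smul_apply, h.y, smul_smul]

/-- `ww (uu a (e i)) = ∑ j, a ^ j * C(i + j, i) * (-1) ^ (i + j) • e (k - i - j)` (over `i + j ≤ k`); the coefficient of `e i` comes from
`j = k - 2 i` (if `2 i ≤ k`; otherwise `(k - i).choose i = 0`).  `LinearMap.trace_eq_matrix_trace`/`trace_eq_sum_repr`-like. -/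
theorem Spc.trace_wu (h : Spc ρ k e) (hs : ⊤ ≤ Submodule.span K (Set.range e)) (a : ZMod p) :
    LinearMap.trace K V (ρ ww * ρ (uu a)) =
      ∑ i ∈ Finset.range (k + 1), (-1) ^ (k - i) * io K p a ^ (k - 2 * i) * ((k - i).choose i : K) := by
  obtain ⟨b, hb⟩ := h.exists_basis hs
  have r : ∀ (m : ℕ) (i : Fin (k + 1)), b.repr (ρ ww (e m)) i = if m + i = k then (-1) ^ m else 0 := fun m i => by
    rcases le_or_gt m k with l | l
    · rw [h.w m l, map_smul, ← hb ⟨k - m, by omega⟩, b.repr_self, Finsupp.smul_apply, Finsupp.single_apply,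
        smul_eq_mul, mul_ite, mul_one, mul_zero]
      exact if_congr (by rw [Fin.ext_iff]; dsimp only; omega) rfl rfl
    · rw [h.z m l, map_zero, map_zero, if_neg (by omega)]
      rfl
  rw [LinearMap.trace_eq_matrix_trace K b, Matrix.trace, Finset.sum_range]
  refine Finset.sum_congr rfl fun i _ => ?_
  rw [Matrix.diag_apply, LinearMap.toMatrix_apply, hb, End.mul_apply, h.uu_e, map_sum, map_sum, Finsupp.finsetSum_apply]
  simp only [map_smul, Finsupp.smul_apply, r, smul_eq_mul]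
  have := h.lt
  rcases le_or_gt (2 * i.1) k with l | l
  · rw [Finset.sum_eq_single (k - 2 * i.1) (fun j _ n => by rw [if_neg (by omega), mul_zero])
      fun n => (n (Finset.mem_range.2 (by omega))).elim, if_pos (by omega), show i.1 + (k - 2 * i.1) = k - i by omega]
    ring
  · rw [Nat.choose_eq_zero_of_lt (by omega), Nat.cast_zero, mul_zero]
    exact Finset.sum_eq_zero fun j _ => by rw [if_neg (by omega), mul_zero]

/-- `cc 1 = ww * uu 1`, `cc 1 ^ 2 = hh (-1) * uu (-1) * ww` (`cc_sq`), `ρ (hh (-1)) = (-1) ^ k • 1` (`p` odd), `trace_mul_comm`;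
`(-1) ^ k * (-1) ^ (k - 2 i) = 1` if `2 i ≤ k`. -/
theorem Spc.trace_EE (hp : 3 ≤ p) (h : Spc ρ k e) (hs : ⊤ ≤ Submodule.span K (Set.range e)) :
    LinearMap.trace K V (ρ.asAlgebraHom (EE K p)) = ((k + 1 + 2 * tau k : ℤ) : K) := by
  obtain ⟨b, hb⟩ := h.exists_basis hs
  have := Module.Finite.of_basis b
  have ev : Even (p - 1) := (Fact.out : p.Prime).even_sub_one (by omega)
  have h1 : ρ (hh (-1)) = (-1 : K) ^ k • 1 := b.ext fun i => by
    have := h.lt
    rw [hb, h.h, LinearMap.smul_apply, End.one_apply, Units.val_neg, Units.val_one, map_neg, map_one]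
    congr 1
    rw [neg_one_pow_congr (m := k)]
    rw [Nat.even_iff] at ev ⊢
    rw [Nat.even_iff]
    omega
  have h2 : cc (1 : (ZMod p)ˣ) = ww * uu 1 := by simp [cc, hh_one]
  have h3 := h.trace_wu hs 1
  have h4 := h.trace_wu hs (-1)
  rw [EE, map_add, map_add, map_add, map_add, map_one, ← map_pow, ρ.asAlgebraHom_of, ρ.asAlgebraHom_of, cc_sq, hh_one,
    mul_one, h2, map_mul ρ, map_mul ρ, map_mul ρ, h1, smul_mul_assoc, smul_mul_assoc, one_mul, map_smul, inv_one,
    Units.val_one, LinearMap.trace_mul_comm K (ρ (uu (-1))), h3, h4, LinearMap.trace_one,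
    finrank_eq_card_basis b, Fintype.card_fin, smul_eq_mul, Finset.mul_sum, tau]
  push_cast
  rw [two_mul, add_assoc, add_assoc, add_assoc]
  congr 3 <;> refine Finset.sum_congr rfl fun i hi => ?_
  · simp
  rcases le_or_gt (2 * i) k with l | l
  · rw [map_neg, map_one, ← mul_assoc, ← pow_add, ← pow_add, neg_one_pow_congr (m := k - i)]
    rw [Nat.even_iff, Nat.even_iff]
    omega
  · simp [Nat.choose_eq_zero_of_lt (show k - i < i by omega)]

/-- `P = 3⁻¹ • EE` is idempotent (`cc_cube`), so `trace P = rk P = rk EE` in `K` (`LinearMap.IsProj.trace`, `IsIdempotentElem.isProj_range`-like).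
Thus `p ∣ 3 f - 3 g` where `3 g = k + 1 + 2 tau k`, `0 ≤ g < p` (`tau_eq`, `h.lt`), so `g ≤ f`. -/
theorem Spc.rk_EE (hp : 5 ≤ p) (h : Spc ρ k e) (hs : ⊤ ≤ Submodule.span K (Set.range e)) :
    (k + 1 + 2 * tau k : ℤ) ≤ 3 * rk (ρ.asAlgebraHom (EE K p)) := by
  obtain ⟨b, -⟩ := h.exists_basis hs
  have := Module.Finite.of_basis b
  have h3 : (3 : K) ≠ 0 := fun e => by
    have := Nat.le_of_dvd (by norm_num) ((CharP.cast_eq_zero_iff K p 3).1 (by exact_mod_cast e))
    omega
  have hc : og K p (cc 1) ^ 3 = 1 := by rw [← map_pow, cc_cube, map_one]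
  have e1 : EE K p * EE K p = (3 : K) • EE K p := by
    rw [EE, show (3 : K) = 1 + 1 + 1 by norm_num, add_smul, add_smul, one_smul]
    rw [← sub_eq_zero, ← mul_zero (1 + 1 + og K p (cc 1)), ← sub_eq_zero.2 hc]
    noncomm_ring
  set E := ρ.asAlgebraHom (EE K p)
  have e2 : E * E = (3 : K) • E := by rw [← map_mul, e1, map_smul]
  have pr : LinearMap.IsProj (LinearMap.range E) ((3 : K)⁻¹ • E) := ⟨fun x => ⟨(3 : K)⁻¹ • x, map_smul _ _ _⟩, by
    rintro _ ⟨x, rfl⟩
    rw [LinearMap.smul_apply, ← End.mul_apply, e2, LinearMap.smul_apply, inv_smul_smul₀ h3]⟩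
  have t := pr.trace
  rw [map_smul, h.trace_EE (by omega) hs, smul_eq_mul, inv_mul_eq_iff_eq_mul₀ h3] at t
  obtain ⟨g, hg, g0, g1⟩ : ∃ g : ℤ, (k + 1 + 2 * tau k : ℤ) = 3 * g ∧ 0 ≤ g ∧ g < p := by
    have := h.lt
    refine ⟨(k + 1 + 2 * tau k) / 3, ?_⟩
    rw [tau_eq]
    split_ifs <;> omega
  rw [hg] at t ⊢
  push_cast at t
  have d := (CharP.intCast_eq_intCast K p).1 ((mul_left_cancel₀ h3 t).trans (Int.cast_natCast _).symm)
  rw [Int.ModEq, Int.emod_eq_of_lt g0 g1, ← Int.natCast_mod] at d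
  have := Nat.mod_le (rk E) p
  unfold rk at this ⊢
  omega

end Cfsg.Lib.SX
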